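import Cfsg.Agent.H28.Elu20
import Cfsg.Agent.H18.SuCase
import Cfsg.Agent.H18.SLArith
import Cfsg.Agent.H12.FldC
import Cfsg.Agent.H12.MaxB
import Cfsg.Agent.H18.Mi0
import Cfsg.Agent.H12.DecD
import Cfsg.Agent.BG.S01a

/-! Properties of the geometric subgroups of `GL₃(F)`: monomial groups and extension field normalizers. -/

set_option autoImplicit false
set_option linter.style.haveILetI false

namespace Cfsg.Agent.MiM

open Cfsg.Geo Matrix Cfsg.Agent.H18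
open scoped commutatorElement

variable {F : Type*} [Field F]

local notation "M3" => Matrix (Fin 3) (Fin 3) F
local notation "G3" => GL (Fin 3) F
local notation "SL3" => specialLinear (Fin 3) F

/-- a matrix of determinant one -/
def sl (A : M3) (h : A.det = 1) : G3 := SpecialLinearGroup.toGL ⟨A, h⟩
@[simp] theorem sl_coe (A : M3) (h : A.det = 1) : (sl A h : M3) = A := rfl
theorem sl_mem (A : M3) (h : A.det = 1) : sl A h ∈ SL3 := mem_specialLinear.mpr h

theorem det_cj (P : G3) (X : M3) : (cj P X).det = X.det := by rw [cj_apply, det_units_conj]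

theorem cj_SL {P g : G3} : P⁻¹ * g * P ∈ SL3 ↔ g ∈ SL3 := by
  rw [mem_specialLinear, mem_specialLinear, Units.val_mul, Units.val_mul, det_units_conj']

theorem cube_of_scalar {g : G3} {c : F} (h : g ∈ SL3) (e : (g : M3) = c • 1) : g ^ 3 = 1 := Units.ext (by
  have := mem_specialLinear.mp h
  rw [e, det_smul, det_one, mul_one, Fintype.card_fin] at this
  rw [Units.val_pow_eq_pow_val, e, _root_.smul_pow, this, one_pow, one_smul, Units.val_one])

theorem card_conj {X Y : Subgroup G3} (P : G3) (h : ∀ g, g ∈ X ↔ P⁻¹ * g * P ∈ Y) : Nat.card ↥(X ⊓ SL3) = Nat.card ↥(Y ⊓ SL3) :=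
  Nat.card_congr ((MulAut.conj P).symm.toEquiv.subtypeEquiv fun g => and_congr (h g) cj_SL.symm)

theorem max_conj {X Y : Subgroup G3} (P : G3) (h : ∀ g, g ∈ X ↔ P⁻¹ * g * P ∈ Y) (hY : IsMaximalIn SL3 (Y ⊓ SL3)) :
    IsMaximalIn SL3 (X ⊓ SL3) := by
  let φ := (MulAut.conj P).toMonoidHom
  have a : ∀ g, P⁻¹ * φ g * P = g := fun g => by simp [φ, mul_assoc]
  have b : ∀ g, φ (P⁻¹ * g * P) = g := fun g => by simp [φ, mul_assoc]
  refine ⟨lt_of_le_of_ne inf_le_right fun e => hY.1.ne (inf_eq_right.mpr fun g hg => a g ▸ (h _).mp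
    (e.ge (cj_SL.mp ((a g).symm ▸ hg))).1), fun M h1 h2 => (hY.2 (M.comap φ)
      (fun g hg => h1 ⟨(h _).mpr ((a g).symm ▸ hg.1), cj_SL.mp ((a g).symm ▸ hg.2)⟩)
      fun g hg => a g ▸ cj_SL.mpr (h2 hg)).imp (fun e => le_antisymm (fun g hg => ⟨(h g).mpr
        (e.le (show φ _ ∈ M from (b g).symm ▸ hg)).1, h2 hg⟩) h1) fun e => le_antisymm h2 fun g hg => b g ▸ e.ge (cj_SL.mpr hg)⟩

theorem max_of {A : Type*} [Group A] [Finite A] {S Y : Subgroup A} (h1 : Y < S)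
    (h : ∀ M, IsMaximalIn S M → Y ≤ M → Nat.card M ≤ Nat.card Y) : IsMaximalIn S Y := by
  refine ⟨h1, fun N a b => or_iff_not_imp_right.mpr fun n => ?_⟩
  obtain ⟨M, c, d⟩ := Finite.exists_le_maximal (p := (· < S)) (lt_of_le_of_ne b n)
  exact le_antisymm (c.trans (Subgroup.eq_of_le_of_card_ge (a.trans c) (h M ⟨d.1, fun L e f =>
    or_iff_not_imp_right.mpr fun n => le_antisymm (d.2 (lt_of_le_of_ne f n) e) e⟩ (a.trans c))).ge) a

/-- monomial matrices -/
def IsMon (x : M3) : Prop := ∃ σ : Equiv.Perm (Fin 3), ∀ i j, x i j ≠ 0 → i = σ j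

theorem mem_dec {D : Fin 3 → Submodule F (Fin 3 → F)} (hD : IsMDecomposition 1 D) :
    ∃ P : G3, ∀ g : G3, g ∈ decompositionStabilizer D ↔ IsMon (cj P⁻¹ g) := by
  obtain ⟨b, hb⟩ := H12.exists_basis_of_dec hD
  obtain ⟨P, hP⟩ := exists_P_of_basis b
  have a : ∀ (g : G3) j, (g : M3) *ᵥ b j = (P : M3) *ᵥ fun i => cj P⁻¹ g i j := fun g j => by
    rw [← hP, ← cj_cj_inv P g, cj_mulVec, cj_cj_inv, mulVec_single_one]; rfl
  refine ⟨P, fun g => ⟨fun ⟨σ, h⟩ => ⟨σ, fun i j n => ?_⟩, fun ⟨σ, h⟩ => mem_stab_of_le hD fun j => ⟨σ j, fun v hv => ?_⟩⟩⟩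
  · obtain ⟨c, e⟩ := Submodule.mem_span_singleton.mp (hb _ ▸ (h j).le ⟨b j, hb j ▸ Submodule.mem_span_singleton_self _, rfl⟩)
    rw [toLin'_apply, a, ← hP, ← mulVec_smul] at e
    have := congrFun (congrArg ((P⁻¹ : G3) *ᵥ ·) e) i
    simp only [inv_mulVec_mulVec] at this
    by_contra f
    simp [f] at this
    exact n this.symm
  · obtain ⟨c, rfl⟩ := Submodule.mem_span_singleton.mp (hb j ▸ hv)
    rw [mulVec_smul, a, hb, show (fun i => cj P⁻¹ (g : M3) i j) = cj P⁻¹ (g : M3) (σ j) j • Pi.single (σ j) 1 from funext fun i => by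
      by_cases f : i = σ j
      · simp [f]
      · simpa [f] using of_not_not (mt (h i j) f), mulVec_smul, hP]
    exact Submodule.smul_mem _ _ (Submodule.smul_mem _ _ (Submodule.mem_span_singleton_self _))

/-- transvections -/
def Tv (g : G3) : Prop := g ≠ 1 ∧ ((g : M3) - 1) * ((g : M3) - 1) = 0

/-- consequences of being monomial -/
structure C2 (Y : Subgroup G3) : Prop where
  six : ∀ g ∈ Y, ∀ h ∈ Y, g ^ 6 * h ^ 6 = h ^ 6 * g ^ 6
  sq : ∀ a ∈ Y, ∀ b ∈ Y, ∀ c ∈ Y, Commute ⁅a * a, b * b⁆ (c * ⁅a * a, b * b⁆ * c⁻¹)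
  eig : ∀ g ∈ Y, ∃ d : F, (((g ^ 6 : G3) : M3) - d • 1).det = 0
  tv2 : ∀ g ∈ Y, ∀ h ∈ Y, Tv g → Tv h → ¬ Tv (g * h)

theorem p6 : ∀ x : Equiv.Perm (Fin 3), x ^ 6 = 1 := by decide +kernel
theorem p2 : ∀ x : Equiv.Perm (Fin 3), (∀ i, i = x i ∨ i = (x * x) i) → x * x = 1 := by decide +kernel
theorem p3 : ∀ x y : Equiv.Perm (Fin 3), x ≠ 1 ∧ x * x = 1 → y ≠ 1 ∧ y * y = 1 → ¬ (x * y ≠ 1 ∧ x * y * (x * y) = 1) := by
  decide +kernel
theorem p4 : ∀ x y : Equiv.Perm (Fin 3), ⁅x * x, y * y⁆ = 1 := by decide +kernel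

theorem exists_pi {Y : Subgroup G3} {P : G3} (hP : ∀ g ∈ Y, IsMon (cj P g)) :
    ∃ π : Y →* Equiv.Perm (Fin 3), ∀ (g : Y) i j, cj P ((g : G3) : M3) i j ≠ 0 → i = π g j := by
  choose s hs using fun g : Y => hP g g.2
  refine ⟨MonoidHom.mk' s fun g h => Equiv.ext fun j => ?_, hs⟩
  obtain ⟨i, n⟩ : ∃ i, cj P (((g * h : Y) : G3) : M3) i j ≠ 0 := by_contra fun n =>
    ((g * h : Y) : G3).det_ne_zero ((det_cj P _).symm.trans (det_eq_zero_of_column_eq_zero j (by simpa only [not_exists, not_not] using n)))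
  rw [← hs _ i j n]
  rw [Subgroup.coe_mul, Units.val_mul, map_mul, mul_apply] at n
  obtain ⟨k, -, n⟩ := Finset.exists_ne_zero_of_sum_ne_zero n
  rw [hs g i k (left_ne_zero_of_mul n), hs h k j (right_ne_zero_of_mul n)]; rfl

theorem c2 {D : Fin 3 → Submodule F (Fin 3 → F)} (hD : IsMDecomposition 1 D) {Y : Subgroup G3}
    (hY : Y ≤ decompositionStabilizer D) : C2 Y := by
  obtain ⟨P, hP⟩ := mem_dec hD
  obtain ⟨π, hs⟩ := exists_pi fun g hg => (hP g).mp (hY hg)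
  generalize P⁻¹ = Q at hs
  have k0 : ∀ g, π g = 1 → ∃ d, cj Q ((g : G3) : M3) = diagonal d := fun g e => ⟨fun i => cj Q ((g : G3) : M3) i i, by
    ext i j
    by_cases f : i = j
    · simp [f]
    · rw [diagonal_apply_ne _ f]; exact of_not_not (mt (hs g i j) (by rwa [e]))⟩
  have k1 : ∀ g h : Y, π g = 1 → π h = 1 → (g : G3) * h = h * g := fun g h a b => Units.ext ((cj Q).injective (by
    obtain ⟨d, a⟩ := k0 g a
    obtain ⟨e, b⟩ := k0 h b
    simp only [Units.val_mul, map_mul, a, b]; exact commute_diagonal _ _))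
  have k2 : ∀ g, π (g ^ 6) = 1 := fun g => by rw [map_pow, p6]
  have k4 : ∀ g : Y, Tv (g : G3) → π g ≠ 1 ∧ π g * π g = 1 := fun g h => by
    have t := congrArg (cj Q) h.2
    refine ⟨fun e => h.1 (Units.ext ((cj Q).injective ?_)), p2 _ fun i => ?_⟩
    · obtain ⟨d, a⟩ := k0 g e
      rw [map_mul, map_sub, map_one, a, ← diagonal_one, diagonal_sub, diagonal_mul_diagonal, map_zero, ← diagonal_zero,
        diagonal_eq_diagonal_iff] at t
      rw [a, Units.val_one, map_one, ← diagonal_one]; exact congrArg _ (funext fun i => by simpa [sub_eq_zero] using t i)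
    · have := congrFun (congrFun t i) i
      rw [← map_mul]
      by_contra! n
      have a := of_not_not (mt (hs g i i) n.1)
      have b := of_not_not (mt (hs (g * g) i i) n.2)
      simp only [Subgroup.coe_mul, Units.val_mul] at b
      simp [mul_sub, sub_mul, a, b, -map_mul] at this
  refine ⟨fun g a h b => ?_, fun a ha b hb c hc => ?_, fun g a => ?_,
    fun g a h b t1 t2 t3 => p3 _ _ (k4 ⟨g, a⟩ t1) (k4 ⟨h, b⟩ t2) (by rw [← map_mul]; exact k4 ⟨g * h, mul_mem a b⟩ t3)⟩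
  · simpa only [Subgroup.coe_pow] using k1 (⟨g, a⟩ ^ 6) (⟨h, b⟩ ^ 6) (k2 _) (k2 _)
  · have e : π ⁅(⟨a, ha⟩ * ⟨a, ha⟩ : Y), ⟨b, hb⟩ * ⟨b, hb⟩⁆ = 1 := by rw [map_commutatorElement, map_mul, map_mul, p4]
    have := k1 _ (⟨c, hc⟩ * ⁅(⟨a, ha⟩ * ⟨a, ha⟩ : Y), ⟨b, hb⟩ * ⟨b, hb⟩⁆ * ⟨c, hc⟩⁻¹) e (by
      rw [map_mul, map_mul, e, mul_one, ← map_mul, mul_inv_cancel, map_one])
    simpa only [commute_iff_eq, commutatorElement_def, Subgroup.coe_mul, Subgroup.coe_inv] using this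
  · obtain ⟨d, e⟩ := k0 (⟨g, a⟩ ^ 6) (k2 _)
    refine ⟨d 0, ?_⟩
    rw [Subgroup.coe_pow] at e
    rw [← det_cj Q, map_sub, map_smul, map_one, e]
    refine det_eq_zero_of_row_eq_zero 0 fun j => ?_
    fin_cases j <;> simp

section
variable {K : Subalgebra F (Matrix (Fin 3) (Fin 3) F)} (hK : IsFieldSubalgebra 3 K)
include hK

theorem isField : IsField K := ⟨⟨0, 1, zero_ne_one⟩, fun x y => Subtype.ext (hK.comm _ x.2 _ y.2), fun {x} h =>
  let ⟨y, a, b⟩ := hK.inv x x.2 (by simpa using h); ⟨⟨y, a⟩, Subtype.ext b⟩⟩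

theorem exists_smul {v : Fin 3 → F} (h : v ≠ 0) (w : Fin 3 → F) : ∃ k ∈ K, k *ᵥ v = w := by
  let l : K →ₗ[F] (Fin 3 → F) := ⟨⟨fun k => (k : M3) *ᵥ v, fun a b => add_mulVec _ _ _⟩, fun c a => smul_mulVec c (a : M3) v⟩
  obtain ⟨k, e⟩ := (LinearMap.injective_iff_surjective_of_finrank_eq_finrank (f := l) (by simp [hK.finrank_eq])).mp
    ((injective_iff_map_eq_zero l).mpr fun k e => by
      by_contra n
      obtain ⟨y, a, b⟩ := hK.inv k k.2 (by simpa using n)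
      exact h (by rw [← one_mulVec v, ← b, hK.comm _ k.2 _ a, ← mulVec_mulVec, show (k : M3) *ᵥ v = 0 from e, mulVec_zero])) w
  exact ⟨k, k.2, e⟩

theorem mem_K {x : M3} (h : ∀ k ∈ K, x * k = k * x) : x ∈ K := by
  have v : (Pi.single 0 1 : Fin 3 → F) ≠ 0 := by simp
  obtain ⟨y, a, b⟩ := exists_smul hK v (x *ᵥ Pi.single 0 1)
  refine (toLin'.injective (LinearMap.ext fun w => ?_) : y = x) ▸ a
  obtain ⟨k, c, rfl⟩ := exists_smul hK v w
  rw [toLin'_apply, toLin'_apply, mulVec_mulVec, mulVec_mulVec, h k c, hK.comm y a k c, ← mulVec_mulVec, b, mulVec_mulVec]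

theorem eq_smul {x : M3} (hx : x ∈ K) {d : F} (h : (x - d • 1).det = 0) : x = d • 1 := sub_eq_zero.mp (by
  by_contra n
  obtain ⟨y, -, b⟩ := hK.inv _ (K.sub_mem hx (K.smul_mem K.one_mem d)) n
  simpa [h] using congrArg det b)

theorem gen {k : M3} (hk : k ∈ K) (n : ∀ c : F, k ≠ c • 1) {B : Subalgebra F M3} (h : k ∈ B) : K ≤ B := by
  haveI := (isField hK).isDomain
  haveI := Subalgebra.isSimpleOrder_of_finrank_prime F K (by rw [hK.finrank_eq]; exact Nat.prime_three)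
  rcases eq_bot_or_eq_top (B.comap K.val) with e | e
  · obtain ⟨c, f⟩ := Algebra.mem_bot.mp (e.le (show (⟨k, hk⟩ : K) ∈ B.comap K.val from h))
    exact absurd ((congrArg Subtype.val f).symm.trans (Algebra.algebraMap_eq_smul_one c)) (n c)
  · exact fun x hx => e.ge (Algebra.mem_top (x := (⟨x, hx⟩ : K)))

theorem unit_mem {k : G3} (hk : (k : M3) ∈ K) : k ∈ subalgebraNormalizer K := fun x => by
  obtain ⟨y, a, b⟩ := hK.inv _ hk k.ne_zero
  rw [← Units.eq_inv_of_mul_eq_one_left b]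
  exact ⟨fun h => K.mul_mem (K.mul_mem hk h) a, fun h => by
    have := K.mul_mem (K.mul_mem a h) hk
    rwa [← mul_assoc, ← mul_assoc, hK.comm _ a _ hk, b, one_mul, mul_assoc, hK.comm _ a _ hk, b, mul_one] at this⟩

variable [Fintype F]

theorem cube_mem {g : G3} (hg : g ∈ subalgebraNormalizer K) : ((g ^ 3 : G3) : M3) ∈ K := by
  letI := (isField hK).toField
  haveI : Finite K := Finite.of_injective _ Subtype.val_injective
  obtain ⟨α, hα⟩ : ∃ α : K ≃ₐ[F] K, ∀ x, (α x : M3) = cj g x := ⟨(cj g).subalgebraMap K |>.trans (Subalgebra.equivOfEq _ _ (le_antisymm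
    (by rintro _ ⟨x, hx, rfl⟩; exact (hg x).mp hx) fun x hx => ⟨cj g⁻¹ x, ((inv_mem hg) x).mp hx, cj_cj_inv _ _⟩)), fun _ => rfl⟩
  have a : α ^ Nat.card (K ≃ₐ[F] K) = 1 := pow_card_eq_one'
  rw [IsGalois.card_aut_eq_finrank, hK.finrank_eq, pow_three] at a
  refine mem_K hK fun k hk => (cj_eq_iff _ _ _).mp ?_
  have := congrArg Subtype.val (DFunLike.congr_fun a ⟨k, hk⟩)
  rwa [AlgEquiv.mul_apply, AlgEquiv.mul_apply, hα, hα, hα, ← cj_mul, ← cj_mul, mul_assoc, ← pow_three] at this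

theorem no_inv {g : G3} (hg : g ∈ subalgebraNormalizer K) (h : g * g = 1) (e : ((g : M3) - 1).det = 0) : g = 1 :=
  Units.ext ((eq_smul hK (by simpa [pow_three, h] using cube_mem hK hg) (d := 1) (by simpa using e)).trans (one_smul _ _))

theorem exists_singer : ∃ k : G3, (k : M3) ∈ K ∧ k ∈ SL3 ∧ orderOf k = Fintype.card F ^ 2 + Fintype.card F + 1 := by
  letI := (isField hK).toField
  haveI : Finite K := Finite.of_injective _ Subtype.val_injective
  obtain ⟨κ, h⟩ := IsCyclic.exists_ofOrder_eq_natCard (α := Kˣ)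
  obtain ⟨n, hn⟩ : ∃ n, Fintype.card F = n + 1 := ⟨_, (Nat.succ_pred_eq_of_pos Fintype.card_pos).symm⟩
  have n0 : n ≠ 0 := by have := two_le_card (F := F); omega
  rw [Nat.card_units, Module.natCard_eq_pow_finrank (K := F), hK.finrank_eq, Nat.card_eq_fintype_card, hn,
    show (n + 1) ^ 3 - 1 = n * ((n + 1) ^ 2 + (n + 1) + 1) from Nat.sub_eq_of_eq_add (by ring)] at h
  let φ := Units.map K.val.toMonoidHom
  have i : Function.Injective φ := Units.map_injective Subtype.val_injective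
  refine ⟨φ (κ ^ n), (κ ^ n).1.2, mem_specialLinear.mpr ?_, by
    rw [orderOf_injective φ i, orderOf_pow' _ n0, h, Nat.gcd_mul_right_left, Nat.mul_div_cancel_left _ (Nat.pos_of_ne_zero n0), hn]⟩
  rw [map_pow, Units.val_pow_eq_pow_val, det_pow]
  exact pow_pred_card hn (GeneralLinearGroup.det_ne_zero (φ κ))

end

end Cfsg.Agent.MiM
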