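import Cfsg.Agent.MiM.Tr

/-! Extraspecial subgroups of order 27 in `GL₃(F)` and their normalizers. -/

set_option autoImplicit false
set_option linter.style.haveILetI false

namespace Cfsg.Agent.MiM

open Cfsg.Geo Matrix Cfsg.Agent.H18 Cfsg.Agent.H18.Mi
open scoped commutatorElement

variable {F : Type*} [Field F] {ω : F}

local notation "M3" => Matrix (Fin 3) (Fin 3) F
local notation "G3" => GL (Fin 3) F
local notation "SL3" => specialLinear (Fin 3) F
local notation "Z3" => scalars (Fin 3) F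

theorem dg_pow {a b c : F} (h : a * b * c = 1) (n : ℕ) :
    ((dg a b c h ^ n : G3) : M3) = !![a ^ n, 0, 0; 0, b ^ n, 0; 0, 0, c ^ n] := by
  induction n with
  | zero => simp [one_fin_three]
  | succ n ih => rw [pow_succ, Units.val_mul, ih]; simp [dg, pow_succ]

theorem cy_cube : (cy : G3) ^ 3 = 1 := Units.ext (by simp [cy, pow_three, one_fin_three])

/-- the diagonal generator -/
def xw (h : IsPrimitiveRoot ω 3) : G3 := dg 1 ω (ω ^ 2) (by linear_combination h.pow_eq_one)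
/-- the central generator -/
def zw (h : IsPrimitiveRoot ω 3) : G3 := dg ω ω ω (by linear_combination h.pow_eq_one)
/-- the standard extraspecial group -/
def R0 (h : IsPrimitiveRoot ω 3) : Subgroup G3 := Subgroup.closure {xw h, cy}

variable (h : IsPrimitiveRoot ω 3)

theorem xw_mem : xw h ∈ R0 h := Subgroup.subset_closure (by simp)
theorem cy_mem : cy ∈ R0 h := Subgroup.subset_closure (by simp)
theorem xw_cy : xw h * cy = zw h * cy * xw h := Units.ext (by
  have := h.pow_eq_one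
  simp [xw, zw, dg, cy]; grind)
theorem zw_mem : zw h ∈ R0 h := comm_mem (mul_mem (mul_mem (mul_mem (xw_mem h) (cy_mem h)) (inv_mem (xw_mem h))) (inv_mem (cy_mem h))) (xw_cy h)
theorem zw_coe : (zw h : M3) = ω • 1 := by simp [zw, dg, one_fin_three]
theorem zw_comm (g : G3) : Commute (zw h) g := scalars_comm (mem_scalars_of_eq_smul (zw_coe h)) g

theorem normal_form {R : Subgroup G3} (e : ∀ g ∈ R, g ^ 3 = 1) (h1 : xw h ∈ Z2 3 R) (h2 : cy ∈ R) {g : G3} (hg : g ∈ R) :
    ∃ i j k : Fin 3, g = zw h ^ (i : ℕ) * xw h ^ (j : ℕ) * cy ^ (k : ℕ) := by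
  have w := h.pow_eq_one
  have w1 : ω - 1 ≠ 0 := sub_ne_zero.mpr (h.ne_one (by decide))
  have w0 : ω ≠ 0 := h.ne_zero (by decide)
  have w2 : ω + 1 ≠ 0 := fun n => by rw [eq_neg_of_add_eq_zero_left n] at w w1; exact w1 (by linear_combination w)
  have k : ∀ g ∈ R, g * xw h = xw h * g → ∃ i j : Fin 3, g = zw h ^ (i : ℕ) * xw h ^ (j : ℕ) := fun g hg c => by
    replace c := fun i j => congrArg (fun x : G3 => (x : M3) i j) c
    have d : (g : M3) = !![(g : M3) 0 0, 0, 0; 0, (g : M3) 1 1, 0; 0, 0, (g : M3) 2 2] := by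
      have := c 0 1; have := c 0 2; have := c 1 0; have := c 1 2; have := c 2 0; have := c 2 1
      ext i j
      fin_cases i <;> fin_cases j <;> simp [xw, dg, mul_apply, Fin.sum_univ_three] at * <;> grind
    obtain ⟨a, b, c, d⟩ : ∃ a b c, (g : M3) = !![a, 0, 0; 0, b, 0; 0, 0, c] := ⟨_, _, _, d⟩
    have e1 := congrArg Units.val (e g hg)
    have e2 := congrArg (fun x : G3 => (x : M3) 0 0) (e _ (mul_mem hg h2))
    simp only [pow_three, Units.val_mul, d, Units.val_one, one_fin_three] at e1 e2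
    simp [cy] at e1 e2
    obtain ⟨i, i3, rfl⟩ := h.eq_pow_of_pow_eq_one (ξ := a) (by linear_combination e1.1)
    obtain ⟨j, j3, f⟩ := h.eq_pow_of_pow_eq_one (ξ := b * (ω ^ i) ^ 2) (by grind)
    refine ⟨⟨i, i3⟩, ⟨j, j3⟩, Units.ext ?_⟩
    rw [Units.val_mul, zw, xw, dg_pow, dg_pow, d, ← pow_mul ω 2, mul_comm 2, pow_mul, f]
    simp; grind
  obtain ⟨c, c3, f⟩ := h1.2 g hg
  obtain ⟨n, n3, d⟩ := h.eq_pow_of_pow_eq_one (ξ := (c : F)) (by simpa using congrArg Units.val c3)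
  have z : sc (Fin 3) c = zw h ^ n := Units.ext (by rw [sc_coe, Units.val_pow_eq_pow_val, zw_coe, _root_.smul_pow, d, one_pow])
  have y : ∀ n : ℕ, xw h * cy ^ n = zw h ^ n * cy ^ n * xw h := fun n => by
    induction n with
    | zero => simp
    | succ n ih => rw [pow_succ, ← mul_assoc, ih, mul_assoc, xw_cy, pow_succ]; simp only [mul_assoc]; rw [← mul_assoc (cy ^ n), ← (zw_comm h _).eq, mul_assoc]
  obtain ⟨i, j, a⟩ := k (g * cy ^ n) (mul_mem hg (pow_mem h2 n)) (mul_left_cancel (a := zw h ^ n) (by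
    rw [mul_assoc g, ← mul_assoc, ((zw_comm h g).pow_left n).eq, mul_assoc, ← mul_assoc (zw h ^ n), ← y, ← mul_assoc, f, z]
    simp only [mul_assoc]))
  refine ⟨i, j, ⟨(2 * n) % 3, by omega⟩, ?_⟩
  rw [← a, ← pow_eq_pow_mod _ cy_cube, mul_assoc, ← pow_add, show n + 2 * n = 3 * n by ring, pow_mul, cy_cube, one_pow, mul_one]

theorem cube {R : Subgroup G3} (h1 : IsSymplecticTypeGroup 3 R) (x : G3) (hx : x ∈ R) : x ^ 3 = 1 :=
  congrArg Subtype.val (show (⟨x, hx⟩ : R) ^ 3 = 1 by simpa [h1.exponent_eq] using Monoid.pow_exponent_eq_one (⟨x, hx⟩ : R))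

theorem hes_std [Finite F] {R : Subgroup G3} (h1 : IsSymplecticTypeGroup 3 R) (h2 : ActsAbsolutelyIrreducibly (matrixSet R)) :
    Nat.card R ≤ 27 ∧ ∃ P : G3, ∀ g, g ∈ R ↔ P⁻¹ * g * P ∈ R0 h := by
  obtain ⟨x, hx, n⟩ := exists_mem_Z2 (by simp) Nat.prime_three h1.pGroup h2
  obtain ⟨y, hy, e⟩ : ∃ y ∈ R, (x : M3) * y = ω • ((y : M3) * x) := by
    obtain ⟨z, hz, m⟩ : ∃ z ∈ R, z * x ≠ x * z := by_contra fun m => n (by
      obtain ⟨c, a⟩ := scalar_of_absIrr h2 (y := x) (by simpa using m)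
      exact mem_scalars_of_eq_smul a)
    obtain ⟨c, c3, f⟩ := hx.2 z hz
    obtain ⟨n, n3, d⟩ := h.eq_pow_of_pow_eq_one (ξ := (c : F)) (by simpa using congrArg Units.val c3)
    replace f := congrArg Units.val f
    rw [sc_mul_coe, ← d, Units.val_mul, Units.val_mul] at f
    interval_cases n
    · exact absurd (Units.ext (by simpa using f)) m
    · exact ⟨z * z, mul_mem hz hz, by
        rw [Units.val_mul, mul_assoc (z : M3) z, f, mul_smul_comm, ← mul_assoc (z : M3), f, smul_mul_assoc, smul_smul, smul_smul, pow_one, ← pow_three',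
          h.pow_eq_one, one_smul, mul_assoc]⟩
    · exact ⟨z, hz, by rw [f, smul_smul, ← pow_succ', h.pow_eq_one, one_smul]⟩
  obtain ⟨b, b1, b2, b3, b4⟩ := (H28.X3.mk (by simp) h (cube h1 x hx.1) (cube h1 y hy) e rfl).basis
  obtain ⟨P, hP⟩ := exists_P_of_basis b
  have a : ∀ g k : G3, (∀ i, (g : M3) *ᵥ b i = ∑ j, (k : M3) j i • b j) → g = P * k * P⁻¹ := fun g k t =>
    eq_mul_inv_of_mul_eq (Units.ext (toLin'.injective ((Pi.basisFun F _).ext fun i => by
      simp only [toLin'_apply, Pi.basisFun_apply, Units.val_mul, ← mulVec_mulVec, hP, t]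
      simp only [← hP, ← mulVec_smul, ← mulVec_sum]
      congr 1; ext j; simp [Pi.single_apply])))
  have ax := a x (xw h) fun i => by fin_cases i <;> simp [b1, xw, dg, Fin.sum_univ_three]
  have ay := a y cy fun i => by fin_cases i <;> simp [b2, b3, b4, cy, Fin.sum_univ_three]
  let φ := (MulAut.conj P).toMonoidHom
  have nf := fun g hg => normal_form h (R := R.comap φ) (g := g) (fun g hg => (MulAut.conj P).injective (by
      rw [map_pow, map_one]; exact cube h1 _ hg)) ⟨show P * _ * P⁻¹ ∈ R from ax ▸ hx.1, fun z hz => by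
        obtain ⟨c, c3, f⟩ := hx.2 _ hz
        refine ⟨c, c3, (MulAut.conj P).injective ?_⟩
        rw [map_mul, map_mul, map_mul, MulAut.conj_apply P (sc _ _), conj_sc, MulAut.conj_apply P (xw h), ← ax]; exact f⟩
      (show P * _ * P⁻¹ ∈ R from ay ▸ hy) hg
  have le : R0 h ≤ R.comap φ := (Subgroup.closure_le _).mpr (Set.pair_subset
    (show P * _ * P⁻¹ ∈ R from ax ▸ hx.1) (show P * _ * P⁻¹ ∈ R from ay ▸ hy))
  have m : ∀ g, P⁻¹ * g * P ∈ R.comap φ ↔ g ∈ R := fun g => by simp [φ, mul_assoc]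
  refine ⟨?_, P, fun g => ⟨fun hg => ?_, fun hg => (m g).mp (le hg)⟩⟩
  · choose i j k e using fun g : R => nf _ ((m g).mpr g.2)
    exact (Nat.card_le_card_of_injective (fun g => (i g, j g, k g)) fun g g' t => by
      simp only [Prod.mk.injEq] at t
      have := e g
      rw [t.1, t.2.1, t.2.2, ← e g'] at this
      exact Subtype.ext (by simpa using this)).trans (by simp)
  · obtain ⟨i, j, k, e⟩ := nf _ ((m g).mpr hg)
    exact e ▸ mul_mem (mul_mem (pow_mem (zw_mem h) _) (pow_mem (xw_mem h) _)) (pow_mem (cy_mem h) _)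

theorem norm_std {R R' : Subgroup G3} {P : G3} (e : ∀ g, g ∈ R ↔ P⁻¹ * g * P ∈ R') (g : G3) :
    g ∈ subgroupNormalizer R ↔ P⁻¹ * g * P ∈ subgroupNormalizer R' := by
  simp only [subgroupNormalizer, Subgroup.mem_normalizer_iff, e]
  refine ⟨fun t x => ?_, fun t x => (t _).trans (by congr! 1; group)⟩
  convert t (P * x * P⁻¹) using 2 <;> group

theorem mem_norm [Finite F] {g : G3} (a : ∃ x ∈ R0 h, g * xw h = x * g) (b : ∃ x ∈ R0 h, g * cy = x * g) :
    g ∈ subgroupNormalizer (R0 h) := Subgroup.mem_normalizer_fintype fun _ hx =>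
  (Subgroup.closure_le ((R0 h).comap (MulAut.conj g).toMonoidHom)).mpr (Set.pair_subset
    (let ⟨x, c, d⟩ := a; show g * _ * g⁻¹ ∈ R0 h from (mul_inv_eq_of_eq_mul d).symm ▸ c)
    (let ⟨x, c, d⟩ := b; show g * _ * g⁻¹ ∈ R0 h from (mul_inv_eq_of_eq_mul d).symm ▸ c)) hx

omit h in
theorem card_R [Fintype F] {R : Subgroup G3} (hR : IsLinearSymplecticTypeData 3 R) :
    (∃ ω : F, IsPrimitiveRoot ω 3) ∧ Nat.card R = 27 ∧ Nat.card (Subgroup.center R) = 3 := by
  obtain ⟨p, a, b, c⟩ := linData_three hR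
  obtain ⟨ω, h⟩ := H28.exists_prim (F := F) (r := 3) (by omega)
  have := (hes_std h hR.symplecticType hR.absIrred).1
  obtain ⟨p, e, -, h1, ⟨-, -, h3, m, h4, h5⟩ | ⟨h2, -⟩ | ⟨h2, -⟩⟩ := hR.field
  · exact ⟨⟨ω, h⟩, le_antisymm this (h5 ▸ Nat.pow_le_pow_right (n := 3) (by decide) (show 3 ≤ _ by omega)), h3⟩
  · omega
  · omega

/-- consequences of normalising an extraspecial group of order 27 -/
structure C6 (M : Subgroup G3) : Prop where
  exp : ∀ g ∈ M, g ^ 432 = 1
  a4 : ∀ t ∈ M, ∀ c ∈ M, t * t = 1 → t * (c * t * c⁻¹) = c * (c * t * c⁻¹) * c⁻¹ → t = 1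

omit h in
theorem a4 (t c : GL (Fin 2) (ZMod 3)) (a : t * t = 1) (b : t * (c * t * c⁻¹) = c * (c * t * c⁻¹) * c⁻¹) : t = 1 := by
  have d : (t : Matrix (Fin 2) (Fin 2) (ZMod 3)).det = 1 := by
    simpa [t.det_ne_zero] using congrArg (fun x => (GeneralLinearGroup.det x : ZMod 3)) b
  have e : ∀ a b c d : ZMod 3, !![a, b; c, d] * !![a, b; c, d] = 1 → !![a, b; c, d].det = 1 →
      !![a, b; c, d] = 1 ∨ !![a, b; c, d] = -1 := by
    simp only [det_fin_two_of]; decide +kernel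
  have e := e (t.1 0 0) (t.1 0 1) (t.1 1 0) (t.1 1 1)
  rw [← eta_fin_two] at e
  rcases e (congrArg Units.val a) d with e | e
  · exact Units.ext e
  · obtain rfl : t = -1 := Units.ext e
    simpa using b.symm

omit h in
theorem comm_cube {A : Type*} [Group A] {g x z : A} (a : ∀ y, z * y = y * z) (b : z ^ 3 = 1) (c : g * x = z * x * g) :
    g ^ 3 * x = x * g ^ 3 := by
  have : ∀ n : ℕ, g ^ n * x = z ^ n * x * g ^ n := fun n => by
    induction n with
    | zero => simp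
    | succ n ih => rw [pow_succ', mul_assoc, ih, ← mul_assoc, ← mul_assoc, ← (Commute.pow_left (a g) n).eq, mul_assoc _ g, c, pow_succ z]; group
  rw [this, b, one_mul]

omit h in
theorem c6 [Finite F] {R : Subgroup G3} (h1 : IsSymplecticTypeGroup 3 R) (h2 : ActsAbsolutelyIrreducibly (matrixSet R))
    (h3 : Nat.card R = 27) (h4 : Nat.card (Subgroup.center R) = 3) {M : Subgroup G3} (hM : M ≤ subgroupNormalizer R ⊓ SL3) : C6 M := by
  haveI := Fact.mk Nat.prime_three
  let π := QuotientGroup.mk' Z3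
  have k : (π.comp R.subtype).ker = Subgroup.center R := Subgroup.ext fun x => (QuotientGroup.eq_one_iff _).trans
    ⟨fun hx => Subgroup.mem_center_iff.mpr fun z => Subtype.ext (scalars_comm hx _).symm, fun hx => by
      obtain ⟨c, hc⟩ := scalar_of_absIrr h2 (y := x) fun z hz => congrArg Subtype.val (Subgroup.mem_center_iff.mp hx ⟨z, hz⟩)
      exact mem_scalars_of_eq_smul hc⟩
  have c : Nat.card (R.map π) = 3 ^ 2 := by
    have := (π.comp R.subtype).ker.card_mul_index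
    rw [Subgroup.index_ker, k, h3, h4, MonoidHom.range_comp, Subgroup.range_subtype] at this
    omega
  obtain ⟨f, hf⟩ := BG.exists_GL_rep (p := 3) (E := R.map π) ⟨H28.comm_of_dvd_sq (l := 3) c.dvd, by
    rintro _ ⟨x, hx, rfl⟩; rw [← map_pow, cube h1 x hx, map_one]⟩ c le_rfl
  let ψ := f.comp ((π.comp M.subtype).codRestrict _ fun g => Subgroup.le_normalizer_map π ⟨g, (hM g.2).1, rfl⟩)
  have n : ∀ g, ψ g = 1 → (g : G3) ^ 9 = 1 := fun g e => by
    have e : π g ∈ Subgroup.centralizer (R.map π) := hf.le e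
    obtain ⟨c, a⟩ := scalar_of_absIrr h2 (y := (g : G3) ^ 3) fun x hx => by
      have z : (g : G3) * x * (g : G3)⁻¹ * x⁻¹ ∈ Z3 := (QuotientGroup.eq_one_iff _).mp (show π _ = 1 by
        rw [map_mul, map_mul, map_mul, ← e _ ⟨x, hx, rfl⟩]; simp)
      have z3 := cube h1 _ (mul_mem (((hM g.2).1 x).mp hx) (inv_mem hx))
      exact (comm_cube (scalars_comm z) z3 (mul_inv_eq_iff_eq_mul.mp (inv_mul_cancel_right _ _).symm)).symm
    rw [show 9 = 3 * 3 from rfl, pow_mul]
    exact cube_of_scalar (pow_mem (hM g.2).2 3) a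
  refine ⟨fun g hg => ?_, fun t ht c hc a b => ?_⟩
  · have := n (⟨g, hg⟩ ^ 48) (by
      rw [map_pow, ← show Nat.card (GL (Fin 2) (ZMod 3)) = 48 by rw [card_GL_field, Fin.prod_univ_two, ZMod.card]; rfl,
        pow_card_eq_one'])
    rwa [Subgroup.coe_pow, ← pow_mul] at this
  · have := n ⟨t, ht⟩ (a4 _ (ψ ⟨c, hc⟩) (by rw [← map_mul, ← map_one ψ]; exact congrArg ψ (Subtype.ext a))
      (by simp only [← map_mul, ← map_inv]; exact congrArg ψ (Subtype.ext b)))
    rwa [show 9 = 2 * 4 + 1 from rfl, pow_succ, pow_mul, sq, a, one_pow, one_mul] at this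

end Cfsg.Agent.MiM
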