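import Cfsg.Agent.MiM.Row2
import Cfsg.Agent.MiX.L32
import Cfsg.Agent.MiX.Alt

/-! The geometric subgroups of `SL₃(F)` are maximal. -/

set_option autoImplicit false
set_option linter.style.haveILetI false

namespace Cfsg.Agent.MiM

open Cfsg.Geo Matrix Cfsg.Agent.H18 Cfsg.Agent.H18.Mi

variable {F : Type*} [Field F] [Fintype F]

local notation "SL3" => specialLinear (Fin 3) F

theorem cs {H P : Subgroup (GL (Fin 3) F)} (hH : H ≤ SL3) (hS : InLinearResidualClass H) {p : ℕ} (hP : IsResidualCore H P)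
    (hp : p.Prime) (hc : CharP F p)
    (h : (Nonempty (PQ P ≃* ProjectiveSpecialLinearGroup (Fin 3) (ZMod 2)) ∧
        Fintype.card F = p ∧ p ≠ 2 ∧ (p % 7 = 1 ∨ p % 7 = 2 ∨ p % 7 = 4)) ∨
      (Nonempty (PQ P ≃* alternatingGroup (Fin 6)) ∧ ((Fintype.card F = p ∧ (p % 15 = 1 ∨ p % 15 = 4)) ∨
        (Fintype.card F = p ^ 2 ∧ p ≠ 3 ∧ (p % 5 = 2 ∨ p % 5 = 3))))) : CS H := by
  have c := Core.of_residual hP hH
  have n := not_real hH hS hP
  have s : p < 11 → p = 2 ∨ p = 3 ∨ p = 5 ∨ p = 7 := fun l => by interval_cases p <;> simp_all (decide := true)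
  rcases h with ⟨⟨e⟩, a, b⟩ | ⟨⟨e⟩, a⟩
  · exact cs_l32 e ((MiX.l32 c hP.normal e).resolve_left n).2 (a ▸ hp) (by omega)
  · refine cs_a6 (p := p) e (((MiX.a6_norm c hP.normal e).resolve_left n).2.1.resolve_right fun f => ?_) ?_
    · have := (Nat.prime_dvd_prime_iff_eq hp Nat.prime_five).mp ((CharP.cast_eq_zero_iff F p 5).mp (by simpa using f.1))
      omega
    · rcases a with a | a
      · omega
      · by_cases t : p = 2
        · exact .inl (by rw [a.1, t]; rfl)
        · have : 7 ≤ p := by omega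
          exact .inr ⟨this, by nlinarith [a.1]⟩

theorem main (hS : ∀ H : Subgroup (GL (Fin 3) F), IsMaximalIn SL3 H → InLinearResidualClass H → CS H) :
    (∀ W : Submodule F (Fin 3 → F), W ≠ ⊥ → W ≠ ⊤ → IsMaximalIn SL3 (subspaceStabilizer W ⊓ SL3)) ∧
    (5 ≤ Fintype.card F → ∀ D : Fin 3 → Submodule F (Fin 3 → F), IsMDecomposition 1 D →
      IsMaximalIn SL3 (decompositionStabilizer D ⊓ SL3)) ∧
    (Fintype.card F ≠ 4 → ∀ K : Subalgebra F (Matrix (Fin 3) (Fin 3) F), IsFieldSubalgebra 3 K →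
      IsMaximalIn SL3 (subalgebraNormalizer K ⊓ SL3)) ∧
    (∀ (F₀ : Subfield F) (r : ℕ) (P : GL (Fin 3) F), r.Prime → Fintype.card F = Nat.card F₀ ^ r →
      IsMaximalIn SL3 (subfieldSubgroup F₀ P ⊓ SL3)) ∧
    (∀ (p : ℕ) (R : Subgroup (GL (Fin 3) F)), p.Prime → Fintype.card F = p → p % 3 = 1 → IsLinearSymplecticTypeData 3 R →
      IsMaximalIn SL3 (subgroupNormalizer R ⊓ SL3)) ∧
    (Odd (Fintype.card F) → ∀ Q : (Fin 3 → F) → F, IsNondegenerateQuadraticForm Q → IsMaximalIn SL3 (quadSimilarityGroup Q ⊓ SL3)) ∧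
    (∀ (σ : F ≃+* F) (f : (Fin 3 → F) → (Fin 3 → F) → F), IsUnitaryForm σ f → IsMaximalIn SL3 (similarityGroup f ⊓ SL3)) := by
  have c := fun M h => col h (hS M h)
  refine ⟨fun W => H12.max_SL_stab, fun a D b => ?_, fun a K b => ?_, fun E r P a b => ?_, fun p R a b d e => ?_, fun a Q b => ?_,
    fun σ f a => ?_⟩
  · obtain ⟨P, e⟩ := mem_dec b
    simp only [cji] at e
    exact max_std (S := fun g => IsMon g.1) e (SL_not_le_decomp b) fun M h l => row2 a (c M h) l b
  · exact max_std (S := (· ∈ subalgebraNormalizer K)) (P := 1) (by simp) (H12.SL_not_le_field (by decide) b (by simp))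
      fun M h l => row3 a (c M h) b l
  · exact max_std (P := P) (fun g => by rw [mem_subfieldSubgroup_iff, cji])
      (SL_not_le_subfield (by simp) (ne_top_of_card_eq_pow a b) P) fun M h l => row5 a b (c M h) l P
  · obtain ⟨⟨ω, w⟩, f, -⟩ := card_R e
    obtain ⟨-, P, g⟩ := hes_std w e.symplecticType e.absIrred
    haveI := charP_of_card_eq_prime (R := F) (hp := ⟨a⟩) b
    exact max_std (S := (· ∈ subgroupNormalizer (R0 w))) (norm_std g) (SL_not_le_normalizer (by simp) e.symplecticType.pGroup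
      (fun n => by have := Nat.le_of_dvd (by decide) ((CharP.cast_eq_zero_iff F p 3).mp n); have := a.two_le; omega)
      ((irr_iff R).mpr e.absIrred.1)) fun M h l => row6 w (b ▸ a) (c M h)
        ((Nat.card_congr ((MulAut.conj P).symm.toEquiv.subtypeEquiv g)).symm.trans f) l e
  · have h2 := two_ne_zero_iff_odd.mpr a
    obtain ⟨P, e⟩ := orth_std (hform_of_quad b) h2
    exact max_std (P := P) (quad_eq b h2 ▸ e) (quad_eq b h2 ▸ SL_not_le_similarity (by simp) (hform_of_quad b))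
      fun M h l => row7 h2 (c M h) l b
  · obtain ⟨P, e⟩ := uni_std a
    exact max_std e (SL_not_le_similarity (by simp) (hform_of_unitary a)) fun M h l => row8 a (c M h) l

end Cfsg.Agent.MiM
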