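import Cfsg.Agent.MiM.Std

/-! Non-containments between the geometric subgroups of `SL₃(F)`, part one. -/

set_option autoImplicit false
set_option linter.style.haveILetI false

namespace Cfsg.Agent.MiM

open Cfsg.Geo Matrix Cfsg.Agent.H18 Cfsg.Agent.H18.Mi
open scoped commutatorElement

variable {F : Type*} [Field F]

local notation "M3" => Matrix (Fin 3) (Fin 3) F
local notation "G3" => GL (Fin 3) F
local notation "SL3" => specialLinear (Fin 3) F
local notation "Z3" => scalars (Fin 3) F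

/-- upper unitriangular matrices -/
def un (a b c : F) : G3 := sl !![1, a, b; 0, 1, c; 0, 0, 1] (by simp [det_fin_three])
/-- lower unitriangular matrices -/
def ln (a b c : F) : G3 := sl !![1, 0, 0; a, 1, 0; b, c, 1] (by simp [det_fin_three])

theorem sc_ent {g : G3} (h : g ∈ Z3) : (g : M3) 1 0 = 0 ∧ (g : M3) 2 0 = 0 ∧ (g : M3) 0 1 = 0 ∧ (g : M3) 1 2 = 0 ∧
    (g : M3) 1 1 = (g : M3) 2 2 := by
  obtain ⟨c, e⟩ := (mem_scalars_iff _).mp h
  simp [e]

theorem ent {g h : G3} (e : g = h) (i j : Fin 3) : (g : M3) i j = (h : M3) i j := by rw [e]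

theorem cy_inv : (cy : G3)⁻¹ = cy * cy := inv_eq_of_mul_eq_one_right (by rw [← pow_three, cy_cube])

variable [Fintype F] {M : Subgroup (GL (Fin 3) F)}

theorem row2 (hq : 5 ≤ Fintype.card F) (hc : Col M) (hM : ∀ g ∈ SL3, IsMon (g : M3) → g ∈ M)
    {D : Fin 3 → Submodule F (Fin 3 → F)} (hD : IsMDecomposition 1 D) : Nat.card M ≤ Nat.card ↥(decompositionStabilizer D ⊓ SL3) := by
  have h1 : cy ∈ M := hM _ (sl_mem _ _) ⟨finRotate 3, fun i j => by fin_cases i <;> fin_cases j <;> simp [cy]⟩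
  have h2 : wv ∈ M := hM _ (sl_mem _ _) ⟨Equiv.swap 1 2, fun i j => by fin_cases i <;> fin_cases j <;> simp [wv] <;> decide⟩
  have h3 : ∀ a b c h, dg a b c h ∈ M := fun a b c h =>
    hM _ (sl_mem _ _) ⟨1, fun i j => by fin_cases i <;> fin_cases j <;> simp [dg]⟩
  obtain ⟨g, e⟩ := IsCyclic.exists_ofOrder_eq_natCard (α := Fˣ)
  rw [Nat.card_units, Nat.card_eq_fintype_card] at e
  have k : ∀ τ : F →+* F, ¬ TrC M τ Inv.inv := fun τ h => by
    have := le_four fun a ha => h.dg_inv h1 h2 ha (h3 _ _ _ _) (h3 _ _ _ _); omega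
  rcases hc with a | ⟨-, -, a⟩ | ⟨K, a, rfl⟩ | ⟨E, r, a, b, c, -⟩ | ⟨a, b, c, -⟩ | ⟨a, -⟩ | ⟨σ, -, -, a, -⟩ | a
  · exact absurd (irr_dg g.ne_zero (fun n => by rw [Units.val_eq_one.mp n, orderOf_one] at e; omega) h1 (h3 _ _ _ _)) a
  · exact (a D hD).le
  · exact absurd h2.1 (wv_not a)
  · exact absurd (fun x => (eq_or_ne x 0).elim (fun h => by simp [h]) fun h => c.dg_id h1 h2 h (h3 _ _ _ _) (h3 _ _ _ _)) (frob_ne a b)
  · have := ent (c.a4 _ (h3 1 (-1) (-1) (by simp)) _ h1 (Units.ext (by simp [dg, one_fin_three]))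
      (Units.ext (by rw [cy_inv]; simp [dg, cy]))) 1 1
    exact absurd (by simp [dg] at this; linear_combination -this) (two_ne_zero_iff_odd.mpr (a.odd_of_ne_two (by omega)))
  · exact absurd a (k _)
  · exact absurd a (k _)
  · obtain ⟨n, b, c, d, -⟩ := a.ord _ (h3 (g : F)⁻¹ g 1 (by simp))
    have := orderOf_le_of_pow_eq_one (x := g) b (Units.ext (by have := (sc_ent d).2.2.2.2; rw [dg_pow] at this; simpa using this))
    have := a.big
    omega

theorem row3 (hq : Fintype.card F ≠ 4) (hc : Col M) {K : Subalgebra F M3} (hK : IsFieldSubalgebra 3 K)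
    (hM : ∀ g ∈ SL3, g ∈ subalgebraNormalizer K → g ∈ M) : Nat.card M ≤ Nat.card ↥(subalgebraNormalizer K ⊓ SL3) := by
  classical
  obtain ⟨k, k1, k2, e⟩ := exists_singer hK
  have q2 := two_le_card (F := F)
  have m : k ∈ M := hM _ k2 (unit_mem hK k1)
  have s : ∀ n, ∀ c : F, ((k ^ n : G3) : M3) = c • 1 → Fintype.card F ^ 2 + Fintype.card F + 1 ∣ n * 3 := fun n c h => by
    rw [← e, orderOf_dvd_iff_pow_eq_one, pow_mul]; exact cube_of_scalar (pow_mem k2 n) h
  have s3 : ∀ c : F, ((k ^ 3 : G3) : M3) ≠ c • 1 := fun c h => by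
    have a := s 3 c h
    have : Fintype.card F ≤ 2 := by have := Nat.le_of_dvd (by decide) a; nlinarith
    rw [show Fintype.card F = 2 by omega] at a; omega
  have k3 : ((k ^ 3 : G3) : M3) ∈ K := pow_mem k1 3
  have t : ∀ S : Finset (F × F), S.card ≤ Fintype.card F → (∀ i : ℕ, (trc ((k ^ i) ^ 3), trc ((k ^ i) ^ 3)⁻¹) ∈ S) → ∀ a r, 2 ≤ r →
      Fintype.card F ≠ a ^ r := fun S a b c r d f => by
    have g := cnt hK k3 (pow_mem k2 3) S fun i => by rw [← pow_mul, mul_comm, pow_mul]; exact b i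
    have := orderOf_le_of_pow_eq_one (x := k) (n := 3 * orderOf (k ^ 3)) (by have := orderOf_pos (k ^ 3); omega)
      (by rw [pow_mul, pow_orderOf_eq_one])
    have : Fintype.card F ≤ 7 := by nlinarith
    have c2 : 2 ≤ c := by_contra fun n => by
      have := Nat.pow_le_pow_left (show c ≤ 1 by omega) r; rw [one_pow] at this; omega
    have := Nat.pow_le_pow_right (n := c) (by omega) d
    obtain rfl : c = 2 := by nlinarith
    obtain rfl | d := d.eq_or_lt
    · exact hq f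
    · have := Nat.pow_le_pow_right two_pos d; omega
  rcases hc with a | ⟨a, b, -⟩ | ⟨K', a, rfl⟩ | ⟨E, r, a, b, ⟨Y, -, c, d⟩, -⟩ | ⟨a, b, c, -⟩ | ⟨⟨Y, -, a, b⟩, -⟩ |
    ⟨σ, a, b, ⟨Y, -, c, d⟩, -⟩ | a
  · refine absurd (fun W h => or_iff_not_imp_left.mpr fun n => eq_top_iff.mpr fun w _ => ?_) a
    obtain ⟨v, hv, n⟩ := W.exists_mem_ne_zero_of_ne_bot n
    obtain ⟨x, hx, rfl⟩ := exists_smul hK n w
    exact mulVec_mem_of_mem_spanAlg h (gen hK k3 s3 (coe_mem_spanAlg (pow_mem m 3)) hx) hv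
  · obtain ⟨d, c⟩ := b.eig k m
    have := Nat.le_of_dvd (by decide) (s 6 d (eq_smul hK (pow_mem k1 6) c))
    nlinarith
  · rw [Subalgebra.eq_of_le_of_finrank_eq (gen hK k3 s3 (cube_mem a m.1)) (hK.finrank_eq.trans a.finrank_eq.symm)]
  · refine absurd b (t ((E : Set F).toFinset ×ˢ (E : Set F).toFinset) ?_ (fun i => ?_) _ _ a.two_le)
    · rw [Finset.card_product, Set.toFinset_card, ← sq, b, ← Nat.card_eq_fintype_card]
      exact Nat.pow_le_pow_right Nat.card_pos a.two_le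
    · simpa using ⟨(frobOf_eq_iff E _).mp (d _ (c _ (pow_mem m i))), (frobOf_eq_iff E _).mp (d _ (inv_mem (c _ (pow_mem m i))))⟩
  · have d := orderOf_dvd_of_pow_eq_one (c.exp k m)
    rw [e] at d
    have : Fintype.card F ≤ 20 := by have := Nat.le_of_dvd (by decide) d; nlinarith
    generalize Fintype.card F = q at *
    interval_cases q <;> omega
  · refine absurd ((eq_smul hK k3 (d := 1)) ?_) (s3 1)
    have c := b _ (a k m)
    have d := mem_specialLinear.mp (pow_mem k2 3)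
    rw [trc, trc, ← MiX.adj_eq (pow_mem k2 3)] at c
    generalize ((k ^ 3 : G3) : M3) = A at c d
    simp [det_fin_three, adjugate_fin_three, trace_fin_three] at c d ⊢
    linear_combination c + d
  · refine absurd (Nat.card_eq_fintype_card.symm.trans (exists_pow_of_invol σ b a).1)
      (t (Finset.univ.image fun x => (x, σ x)) Finset.card_image_le (fun i => ?_) _ _ le_rfl)
    exact Finset.mem_image.mpr ⟨_, Finset.mem_univ _, Prod.ext rfl (d _ (c _ (pow_mem m i)))⟩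
  · obtain ⟨n, b, c, d, -⟩ := a.ord k m
    obtain ⟨z, d⟩ := (mem_scalars_iff _).mp d
    have := Nat.le_of_dvd (by omega) (s n z d)
    have := a.big.resolve_left hq
    nlinarith

theorem row5 {E : Subfield F} {r : ℕ} (hr : r.Prime) (hq : Fintype.card F = Nat.card E ^ r) (hc : Col M)
    (hM : ∀ g ∈ SL3, (∃ ζ : F, ζ ≠ 0 ∧ ∀ i j, ζ * (g : M3) i j ∈ E) → g ∈ M) (P : G3) :
    Nat.card M ≤ Nat.card ↥(subfieldSubgroup E P ⊓ SL3) := by
  have h : ∀ (A : M3) h, (∀ i j, A i j ∈ E) → sl A h ∈ M := fun A h a => hM _ (sl_mem _ _) ⟨1, one_ne_zero, by simpa⟩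
  have h1 : cy ∈ M := h _ _ fun i j => by fin_cases i <;> fin_cases j <;> simp
  have h2 : wv ∈ M := h _ _ fun i j => by fin_cases i <;> fin_cases j <;> simp
  have h3 : ∀ a ∈ E, ∀ b ∈ E, ∀ c ∈ E, un a b c ∈ M := fun a _ b _ c _ => h _ _ fun i j => by
    fin_cases i <;> fin_cases j <;> simp [*]
  have h4 : ∀ a ∈ E, ∀ b ∈ E, ∀ c ∈ E, ln a b c ∈ M := fun a _ b _ c _ => h _ _ fun i j => by
    fin_cases i <;> fin_cases j <;> simp [*]
  have z := E.zero_mem
  have o := E.one_mem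
  have t : ∀ b : F, Tv (un 1 b 0) := fun b => ⟨fun e => by simpa [un] using ent e 0 1, by simp [un, one_fin_three]⟩
  have k : ∀ τ : F →+* F, ¬ TrC M τ Inv.inv := fun τ ⟨Y, a, _, b⟩ => by
    have := b _ (mul_mem (comm_mem (k := cy) (a _ h2 _ h1) (Units.ext (by simp [cy, wv])))
      (comm_mem (k := un 1 0 0) (a _ (h3 0 z 1 o 0 z) _ (h4 0 z 0 z 1 o)) (Units.ext (by simp [un, ln]))))
    rw [_root_.mul_inv_rev, cy_inv, inv_eq_of_mul_eq_one_right (b := un (-1) 0 0) (Units.ext (by simp [un, one_fin_three]))] at this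
    simp [trc, un, cy, trace_fin_three] at this
  rcases hc with a | ⟨-, a, -⟩ | ⟨K, a, rfl⟩ | ⟨E', r', a, b, ⟨Y, c, -, d⟩, e⟩ | ⟨a, -⟩ | ⟨a, -⟩ | ⟨σ, -, -, a, -⟩ | a
  · refine absurd (irr_of ?_ ?_ ?_) a
    · convert sub_mem (coe_mem_spanAlg (h3 1 o 0 z 0 z)) (one_mem _)
      ext i j; fin_cases i <;> fin_cases j <;> simp [un]
    · convert sub_mem (coe_mem_spanAlg (h3 0 z 0 z 1 o)) (one_mem _)
      ext i j; fin_cases i <;> fin_cases j <;> simp [un]
    · convert sub_mem (coe_mem_spanAlg (h4 0 z 1 o 0 z)) (one_mem _)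
      ext i j; fin_cases i <;> fin_cases j <;> simp [ln]
  · exact absurd (show Tv _ from (Units.ext (by simp [un]) : un (1 : F) 1 0 = un 1 0 0 * un 0 1 0) ▸ t 1) (a.tv2 _ (h3 1 o 0 z 0 z) _
      (h3 0 z 1 o 0 z) (t 0) ⟨fun e => by simpa [un] using ent e 0 2, by simp [un, one_fin_three]⟩)
  · exact absurd h2.1 (wv_not a)
  · refine (subfield_eq hr hq a b (fun x hx => (frobOf_eq_iff E' x).mp ?_) ▸ e P).le
    have := d _ (mul_mem (comm_mem (k := un x 0 0) (c _ (h3 0 z x hx 0 z) _ (h4 0 z 0 z 1 o)) (Units.ext (by simp [un, ln])))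
      (comm_mem (k := ln 1 0 0) (c _ (h3 0 z 0 z 1 o) _ (h4 0 z 1 o 0 z)) (Units.ext (by simp [un, ln]))))
    simpa [trc, un, ln, trace_fin_three] using this
  · exact absurd (fix_of_prime a _) (frob_ne hr hq)
  · exact absurd a (k _)
  · exact absurd a (k _)
  · obtain ⟨n, -, -, b, -, c⟩ := a.ord _ (h3 1 o 0 z 0 z)
    obtain ⟨n, d, -, e, f, -⟩ := a.ord _ (h !![0, 0, 1; 1, 0, 1; 0, 1, 0] (by simp [det_fin_three]) fun i j => by
      fin_cases i <;> fin_cases j <;> simp)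
    have := f (of_not_not (mt c (not_not.mpr (tv_pow (t 0) b))))
    have e := sc_ent e
    interval_cases n <;> simp [pow_succ] at e

end Cfsg.Agent.MiM
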