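import Cfsg.Agent.MiM.Row

/-! Non-containments between the geometric subgroups of `SL₃(F)`, part two. -/

set_option autoImplicit false
set_option linter.style.haveILetI false

namespace Cfsg.Agent.MiM

open Cfsg.Geo Matrix Cfsg.Agent.H18 Cfsg.Agent.H18.Mi
open scoped commutatorElement

variable {F : Type*} [Field F] {ω μ : F}

local notation "M3" => Matrix (Fin 3) (Fin 3) F
local notation "G3" => GL (Fin 3) F
local notation "SL3" => specialLinear (Fin 3) F
local notation "Z3" => scalars (Fin 3) F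

/-- a normalised Fourier matrix -/
def fi (w : ω ^ 2 + ω + 1 = 0) (m : μ * (ω - ω ^ 2) = 1) : G3 :=
  sl !![μ, μ, μ; μ, μ * ω, μ * ω ^ 2; μ, μ * ω ^ 2, μ * ω] (by simp [det_fin_three]; grind)
/-- a conjugate of the normalised Fourier matrix -/
def fj (w : ω ^ 2 + ω + 1 = 0) (m : μ * (ω - ω ^ 2) = 1) : G3 :=
  sl !![μ, μ * ω, μ * ω; μ * ω ^ 2, μ * ω, μ * ω ^ 2; μ * ω ^ 2, μ * ω ^ 2, μ * ω] (by simp [det_fin_three]; grind)

section
variable (w : ω ^ 2 + ω + 1 = 0) (m : μ * (ω - ω ^ 2) = 1)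

theorem fi_sq : fi w m * fi w m = wv := Units.ext (by simp [fi, wv]; grind)
theorem wv_sq : (wv : G3) * wv = 1 := Units.ext (by simp [wv, one_fin_three])

theorem not_q8 {M : Subgroup G3} (a : fi w m ∈ M) (b : fj w m ∈ M) :
    ¬ ∀ i ∈ M, ∀ j ∈ M, j * j = i * i → i ^ 4 = 1 → i * j = i * i * j * i → i * i ∈ Z3 := fun h => by
  have := h _ a _ b (by rw [fi_sq]; exact Units.ext (by simp [fj, wv]; grind))
    (by rw [show 4 = 2 * 2 from rfl, pow_mul, sq, sq, fi_sq, wv_sq]) (by rw [fi_sq]; exact Units.ext (by simp [fi, fj, wv]; grind))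
  simpa [fi_sq, wv] using (sc_ent this).2.2.2.1

end

variable [Fintype F] {M : Subgroup (GL (Fin 3) F)}

theorem row6 (h : IsPrimitiveRoot ω 3) (hq : (Fintype.card F).Prime) (hc : Col M) (h27 : Nat.card (R0 h) = 27)
    (hM : ∀ g ∈ SL3, g ∈ subgroupNormalizer (R0 h) → g ∈ M) {R : Subgroup G3} (hR : IsLinearSymplecticTypeData 3 R) :
    Nat.card M ≤ Nat.card ↥(subgroupNormalizer R ⊓ SL3) := by
  have w3 := h.pow_eq_one
  have w1 : ω - 1 ≠ 0 := sub_ne_zero.mpr (h.ne_one (by decide))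
  have w0 : ω ≠ 0 := h.ne_zero (by decide)
  have w : ω ^ 2 + ω + 1 = 0 := mul_left_cancel₀ w1 (by linear_combination w3)
  have wi : ω⁻¹ = ω ^ 2 := inv_eq_of_mul_eq_one_right (by linear_combination w3)
  have m : (ω - ω ^ 2)⁻¹ * (ω - ω ^ 2) = 1 := inv_mul_cancel₀ fun n => mul_ne_zero w0 w1 (by linear_combination -n)
  generalize (ω - ω ^ 2)⁻¹ = μ at m
  have x := xw_mem h
  have y := cy_mem h
  have z := zw_mem h
  have l : R0 h ≤ M := (Subgroup.closure_le _).mpr (Set.pair_subset (hM _ (sl_mem _ _) (Subgroup.le_normalizer x))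
    (hM _ (sl_mem _ _) (Subgroup.le_normalizer y)))
  have h2 : wv ∈ M := hM _ (sl_mem _ _) (mem_norm h ⟨_, mul_mem x x, Units.ext (by simp [wv, xw, dg]; grind)⟩
    ⟨_, mul_mem y y, Units.ext (by simp [wv, cy])⟩)
  have h3 : dg ω⁻¹ ω 1 (by simp [w0]) ∈ M := by
    convert l (mul_mem (mul_mem z z) (mul_mem x x)) using 1
    exact Units.ext (by simp [zw, xw, dg, wi]; grind)
  have h4 : dg ω⁻¹ 1 ω (by simp [w0]) ∈ M := by
    convert l (mul_mem (mul_mem z z) x) using 1
    exact Units.ext (by simp [zw, xw, dg, wi]; grind)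
  have h5 : fi w m ∈ M := hM _ (sl_mem _ _) (mem_norm h ⟨_, mul_mem y y, Units.ext (by simp [fi, xw, dg, cy]; grind)⟩
    ⟨_, x, Units.ext (by simp [fi, xw, dg, cy]; grind)⟩)
  have h6 : fj w m ∈ M := hM _ (sl_mem _ _) (mem_norm h
    ⟨_, mul_mem (mul_mem z (mul_mem x x)) (mul_mem y y), Units.ext (by simp [fj, xw, zw, dg, cy]; grind)⟩
    ⟨_, mul_mem (mul_mem x y) x, Units.ext (by simp [fj, xw, dg, cy]; grind)⟩)
  rcases hc with a | ⟨-, a, -⟩ | ⟨K, a, rfl⟩ | ⟨E', r', a, b, -⟩ | ⟨-, -, -, a⟩ | ⟨a, -⟩ | ⟨σ, a, -⟩ | a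
  · exact absurd (irr_dg w0 (h.ne_one (by decide)) (l y) h3) a
  · have := a.six _ h5 _ (mul_mem (mul_mem (l y) h5) (inv_mem (l y)))
    rw [conj_pow, show 6 = 2 * 3 from rfl, pow_mul, sq, fi_sq, pow_three, wv_sq, mul_one, cy_inv] at this
    simpa [wv, cy] using ent this 0 1
  · exact absurd h2.1 (wv_not a)
  · exact absurd (fix_of_prime hq _) (frob_ne a b)
  · exact (a R hR).le
  · have := a.dg_inv (l y) h2 w0 h3 h4
    rw [wi, RingHom.id_apply] at this
    exact absurd (by linear_combination -this) (mul_ne_zero w0 w1)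
  · exact absurd (RingHom.ext (fix_of_prime hq σ)) a
  · rcases a.q8 with ⟨-, b⟩ | b
    · have := ent (congrArg Subtype.val ((b _ l h27).1.1 ⟨_, x⟩ ⟨_, y⟩)) 1 0
      exact absurd (by simpa [xw, dg, cy] using this) (h.ne_one (by decide))
    · exact absurd b (not_q8 w m h5 h6)

theorem row7 (h2 : (2 : F) ≠ 0) (hc : Col M) (hM : ∀ g ∈ SL3, S8 (RingHom.id F) B0 g → g ∈ M)
    {Q : (Fin 3 → F) → F} (hQ : IsNondegenerateQuadraticForm Q) : Nat.card M ≤ Nat.card ↥(quadSimilarityGroup Q ⊓ SL3) := by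
  have h : ∀ (A : M3) h, Aᵀ * B0 * A = B0 → sl A h ∈ M := fun A h a => hM _ (sl_mem _ _) ⟨1, by simpa⟩
  let u (x : F) := un (2 * x) (2 * x ^ 2) (2 * x)
  let l (x : F) := ln (2 * x) (2 * x ^ 2) (2 * x)
  have hu : ∀ x, u x ∈ M := fun x => h _ _ (by
    ext i j; fin_cases i <;> fin_cases j <;> simp [B0, mul_apply, Fin.sum_univ_three] <;> ring)
  have hl : ∀ x, l x ∈ M := fun x => h _ _ (by
    ext i j; fin_cases i <;> fin_cases j <;> simp [B0, mul_apply, Fin.sum_univ_three] <;> ring)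
  have hd : ∀ a (ha : a ≠ 0), dg a 1 a⁻¹ (by simp [ha]) ∈ M := fun a ha => h _ _ (by
    ext i j; fin_cases i <;> fin_cases j <;> simp [B0, mul_apply, Fin.sum_univ_three, ha])
  have hw : sl B0 (by simp [B0, det_fin_three]) ∈ M := h _ _ (by
    ext i j; fin_cases i <;> fin_cases j <;> simp [B0, mul_apply, Fin.sum_univ_three])
  have w2 : sl B0 (by simp [B0, det_fin_three]) * sl B0 (by simp [B0, det_fin_three]) = (1 : G3) :=
    Units.ext (by simp [B0, one_fin_three])
  have up : ∀ n : ℕ, u 1 ^ n = u n := fun n => by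
    induction n with
    | zero => exact Units.ext (by simp [u, un, one_fin_three])
    | succ n ih => rw [pow_succ, ih]; exact Units.ext (by simp [u, un]; grind)
  have k : ∀ (τ : F →+* F) ι, ι = id ∨ ι = Inv.inv → TrC M τ ι → ∀ x, τ x = x := fun τ ι e ⟨Y, a, _, b⟩ x => by
    have c : ∀ x, τ (3 + 8 * x + 4 * x ^ 2) = 3 + 8 * x + 4 * x ^ 2 := fun x => by
      have := b _ (mul_mem (comm_mem (k := u x) (a _ (hd (-1) (by simp)) _ (hu (-x / 2))) (Units.ext (by simp [u, un, dg]; grind)))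
        (comm_mem (k := l 1) (a _ (hd (-1) (by simp)) _ (hl (-1 / 2))) (Units.ext (by simp [l, ln, dg]; grind))))
      convert this using 2
      · simp [trc, u, l, un, ln, trace_fin_three]; ring
      · rcases e with rfl | rfl
        · simp [trc, u, l, un, ln, trace_fin_three]; ring
        · rw [inv_eq_of_mul_eq_one_right (b := l (-1) * u (-x)) (Units.ext (by simp [u, l, un, ln, one_fin_three]; grind))]
          simp [trc, u, l, un, ln, trace_fin_three]; ring
    have d := c x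
    have e := c (-x)
    simp only [map_add, map_mul, map_pow, map_neg, map_ofNat] at d e
    exact mul_left_cancel₀ (pow_ne_zero 4 h2) (by linear_combination d - e)
  rcases hc with a | ⟨a, b, -⟩ | ⟨K, a, rfl⟩ | ⟨E, r, a, b, c, -⟩ | ⟨a, b, c, -⟩ | ⟨-, a⟩ | ⟨σ, a, -, b, -⟩ | a
  · have b := sub_mem (coe_mem_spanAlg (R := F) (hu 2⁻¹)) (one_mem _)
    have c := sub_mem (coe_mem_spanAlg (R := F) (hl 2⁻¹)) (one_mem _)
    have d := mul_mem (mul_mem b b) (mul_mem c c)
    have e := mul_mem (mul_mem c c) (mul_mem b b)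
    refine absurd (irr_of ?_ ?_ ?_) a
    · convert mul_mem (mul_mem d b) (sub_mem (one_mem _) e)
      ext i j; fin_cases i <;> fin_cases j <;> simp [u, l, un, ln, one_fin_three, h2]
    · convert mul_mem (mul_mem (sub_mem (one_mem _) d) b) e
      ext i j; fin_cases i <;> fin_cases j <;> simp [u, l, un, ln, one_fin_three, h2]
    · convert mul_mem c c
      ext i j; fin_cases i <;> fin_cases j <;> simp [u, l, un, ln, one_fin_three, h2]
  · obtain ⟨x, x0, n⟩ : ∃ x : F, x ≠ 0 ∧ x ≠ x⁻¹ := by_contra fun n => by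
      have := le_four (τ := RingHom.id F) (by simpa using n); omega
    have := b.sq _ (hu 1) _ (hd x x0) _ hw
    rw [comm_eq (k := u (2 - 2 * x * x)) (Units.ext (by simp [u, un, dg]; grind)), inv_eq_of_mul_eq_one_right w2] at this
    have := ent this.eq 0 1
    simp [u, un, B0, h2] at this
    exact absurd (eq_inv_of_mul_eq_one_left (mul_left_cancel₀ h2 (by linear_combination -this))) n
  · simpa [B0] using ent (no_inv a hw.1 w2 (by simp [B0, one_fin_three, det_fin_three])) 0 0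
  · exact absurd (k _ _ (.inl rfl) c) (frob_ne a b)
  · haveI := charP_of_card_eq_prime (R := F) (p := Fintype.card F) (hp := ⟨a⟩) rfl
    have := ent ((up 432).symm.trans (c.exp _ (hu 1))) 0 1
    have := (CharP.cast_eq_zero_iff F (Fintype.card F) (2 ^ 4 * 3 ^ 3)).mp (by simpa [u, un, h2] using this)
    rcases (a.dvd_mul).mp this with d | d <;> have := (Nat.le_of_dvd (by decide) (a.dvd_of_dvd_pow d)) <;> have := a.two_le <;> omega
  · exact (a Q hQ).le
  · exact absurd (RingHom.ext (k _ _ (.inr rfl) b)) a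
  · obtain ⟨n, -, -, b, -, c⟩ := a.ord _ (hu 1)
    rw [up] at b
    have := (sc_ent b).2.2.1
    exact absurd (by simpa [u, un, h2] using this) (c fun e => by
      have := two_ne_zero_iff_odd.mp h2; rw [e] at this; revert this; decide)

theorem row8 {σ : F ≃+* F} {f : (Fin 3 → F) → (Fin 3 → F) → F} (hf : IsUnitaryForm σ f) (hc : Col M)
    (hM : ∀ g ∈ SL3, S8 (σ : F →+* F) 1 g → g ∈ M) : Nat.card M ≤ Nat.card ↥(similarityGroup f ⊓ SL3) := by
  have s1 : (σ : F →+* F) ≠ RingHom.id F := fun e => hf.ne_refl (RingEquiv.ext (RingHom.congr_fun e))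
  have s2 := hf.involutive
  have h : ∀ (A : M3) h, Aᵀ * A.map σ = 1 → sl A h ∈ M := fun A h a => hM _ (sl_mem _ _) ⟨1, by simpa⟩
  have h1 : cy ∈ M := h _ _ (by ext i j; fin_cases i <;> fin_cases j <;> simp [mul_apply, Fin.sum_univ_three])
  have h2 : wv ∈ M := h _ _ (by ext i j; fin_cases i <;> fin_cases j <;> simp [mul_apply, Fin.sum_univ_three])
  have h3 : ∀ a b c h, a * σ a = 1 → b * σ b = 1 → c * σ c = 1 → dg a b c h ∈ M := fun a b c _ _ _ _ =>
    h _ _ (by ext i j; fin_cases i <;> fin_cases j <;> simp [mul_apply, Fin.sum_univ_three, *])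
  have h4 : ∀ a (ha : a * σ a = 1), dg a⁻¹ a 1 (by simp [left_ne_zero_of_mul_eq_one ha]) ∈ M ∧
      dg a⁻¹ 1 a (by simp [left_ne_zero_of_mul_eq_one ha]) ∈ M := fun a ha => by
    have : a⁻¹ * σ a⁻¹ = 1 := by rw [map_inv₀, ← mul_inv, ha, inv_one]
    exact ⟨h3 _ _ _ _ this ha (by simp), h3 _ _ _ _ this (by simp) ha⟩
  obtain ⟨a, a1, a2⟩ := exists_norm_one s1 s2
  obtain ⟨b, b1⟩ := H13.exists_conj_mul_eq (c := -1) s1 s2 (by simp)
  simp only [RingHom.coe_coe] at a1 a2 b1
  let T (c : F) : G3 := sl !![1 + c, c * σ b, 0; c * b, 1 - c, 0; 0, 0, 1] (by simp [det_fin_three]; grind)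
  have hT : ∀ c, σ c = -c → T c ∈ M := fun c e => h _ _ (by
    ext i j; fin_cases i <;> fin_cases j <;> simp [mul_apply, Fin.sum_univ_three, e, s2] <;> grind)
  have tT : ∀ c, c ≠ 0 → Tv (T c) := fun c n => ⟨fun e => n (by simpa [T] using ent e 0 0), by
    ext i j; fin_cases i <;> fin_cases j <;> simp [T, one_fin_three] <;> grind⟩
  have c1 : σ (σ a - a) = -(σ a - a) := by simp [s2]
  have c0 := sub_ne_zero.mpr a2
  have k : ∀ τ : F →+* F, TrC M τ Inv.inv → (σ : F →+* F) = τ := fun τ t => RingHom.ext fun x =>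
    eq_top_of_norm s1 s2 (E := RingHom.eqLocusField (σ : F →+* F) τ) (fun a e => (eq_inv_of_mul_eq_one_right e).trans
      (t.dg_inv h1 h2 (left_ne_zero_of_mul_eq_one e) (h4 a e).1 (h4 a e).2).symm) x
  rcases hc with c | ⟨c, d, -⟩ | ⟨K, c, rfl⟩ | ⟨E, r, c, d, e, -⟩ | ⟨c, -⟩ | ⟨c, -⟩ | ⟨τ, -, -, c, d⟩ | c
  · exact absurd (irr_dg (left_ne_zero_of_mul_eq_one a1) (fun e => a2 (by simp [e])) h1 (h4 a a1).1) c
  · obtain ⟨x, x0, n⟩ : ∃ x : F, x ≠ 0 ∧ 1 + x * σ x ≠ 0 := by_contra fun n => by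
      push Not at n
      have := le_four (τ := (σ : F →+* F)) fun x x0 => eq_inv_of_mul_eq_one_right (by
        have := n 1 one_ne_zero; rw [map_one] at this; rw [RingHom.coe_coe]; linear_combination n x x0 - this)
      omega
    generalize σ a - a = y at c0 c1
    exact absurd ((Units.ext (by simp [T]; grind) : T (y * (1 + x * σ x)) = T y * T (y * (x * σ x))) ▸ tT _ (mul_ne_zero c0 n))
      (d.tv2 _ (hT _ c1) _ (hT _ (by simp [c1, s2, mul_comm])) (tT _ c0) (tT _ (by simp [c0, x0])))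
  · exact absurd h2.1 (wv_not c)
  · exact absurd (fun x => (frobOf_eq_iff E x).mpr (eq_top_of_norm s1 s2 (fun a t => (frobOf_eq_iff E a).mp
      (e.dg_id h1 h2 (left_ne_zero_of_mul_eq_one t) (h4 a t).1 (h4 a t).2)) x)) (frob_ne c d)
  · exact absurd (RingHom.ext (fix_of_prime c _)) s1
  · exact absurd (k _ c) s1
  · exact (d σ f hf (k _ c)).le
  · obtain ⟨n, -, -, d, -, e⟩ := c.ord _ (hT _ c1)
    have q := of_not_not (mt e (not_not.mpr (tv_pow (tT _ c0) d)))
    have t : (2 : F) = 0 := of_not_not fun n => by have := two_ne_zero_iff_odd.mp n; rw [q] at this; revert this; decide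
    have a3 := pow_pred_card q (left_ne_zero_of_mul_eq_one a1)
    have w : a ^ 2 + a + 1 = 0 := mul_left_cancel₀ (sub_ne_zero.mpr fun e : a = 1 => a2 (by simp [e])) (by linear_combination a3)
    have s : σ a = a ^ 2 := by grind
    have m : 1 * (a - a ^ 2) = 1 := by grind
    refine absurd (c.q8.resolve_left fun e => by rw [q] at e; exact absurd e.1 (by decide)) (not_q8 w m (h _ _ ?_) (h _ _ ?_)) <;>
      ext i j <;> fin_cases i <;> fin_cases j <;> simp [mul_apply, Fin.sum_univ_three, s] <;> grind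

end Cfsg.Agent.MiM
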