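import Cfsg.Agent.MiM.Tr
import Cfsg.Agent.MiR.B
import Cfsg.Agent.MiR.L

/-! Subgroups of `SL₃(F)` that are `L₃(2)` or `A₆` modulo scalars. -/

set_option autoImplicit false
set_option linter.style.haveILetI false

namespace Cfsg.Agent.MiM

open Cfsg.Geo Matrix Cfsg.Agent.H18 Cfsg.Agent.H18.Mi Equiv
open scoped commutatorElement

variable {F : Type*} [Field F]

local notation "M3" => Matrix (Fin 3) (Fin 3) F
local notation "G3" => GL (Fin 3) F
local notation "SL3" => specialLinear (Fin 3) F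
local notation "Z3" => scalars (Fin 3) F

theorem q8a : ∀ x : Perm (Fin 6), x * x = swap 0 1 * swap 2 3 → ∀ y : Perm (Fin 6), y * y = swap 0 1 * swap 2 3 →
    x * y ≠ x * x * y * x := by decide +kernel

theorem q8 {x y : Perm (Fin 6)} (a : y * y = x * x) (b : x ^ 4 = 1) (c : x * y = x * x * y * x) : x * x = 1 := by
  by_contra n
  haveI := Fact.mk Nat.prime_two
  have k : ∀ t : Perm (Fin 6), t ≠ 1 → t ^ 2 = 1 → Perm.sign t = 1 → t.cycleType = Multiset.replicate 2 2 := fun t n a b => by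
    have c := Perm.cycleType_of_pow_prime_eq_one a
    have d := t.sum_cycleType_le
    have e := Perm.card_cycleType_pos.mpr n
    rw [Perm.sign_of_cycleType] at b
    generalize t.cycleType.card = m at *
    rw [c, Multiset.sum_replicate] at b d
    simp only [smul_eq_mul, Fintype.card_fin] at b d
    obtain rfl | rfl | rfl : m = 1 ∨ m = 2 ∨ m = 3 := by omega
    exacts [absurd b (by decide), c, absurd b (by decide)]
  obtain ⟨g, e⟩ := isConj_iff.mp (Perm.isConj_of_cycleType_eq ((k (x * x) n (by rw [← b, ← sq, ← pow_mul]) (by simp)).trans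
    (k (swap 0 1 * swap 2 3) (by decide) (by decide) (by decide)).symm))
  refine q8a (g * x * g⁻¹) (by rw [← e]; group) (g * y * g⁻¹) (by rw [← e, ← a]; group) ?_
  simp only [conj_mul, ← c]

theorem exists_hom {P M : Subgroup G3} {S : Type*} [Group S] (e : PQ P ≃* S) (h : M ≤ P ⊔ Z3) :
    ∃ φ : M →* S, ∀ g, φ g = 1 ↔ (g : G3) ∈ Z3 := by
  let π := QuotientGroup.mk' Z3
  let e' := (QuotientGroup.quotientKerEquivRange (π.comp P.subtype)).symm.trans ((QuotientGroup.quotientMulEquivOfEq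
    (Subgroup.ext fun x => QuotientGroup.eq_one_iff _)).trans e)
  refine ⟨e'.toMonoidHom.comp ((π.comp M.subtype).codRestrict _ fun g => ?_), fun g => e'.map_eq_one_iff.trans
    (Subtype.ext_iff.trans (QuotientGroup.eq_one_iff _))⟩
  obtain ⟨p, hp, z, hz, f⟩ := Subgroup.mem_sup_of_normal_right.mp (h g.2)
  exact ⟨⟨p, hp⟩, by simp [π, ← f, (QuotientGroup.eq_one_iff z).mpr hz]⟩

variable [Fintype F]

/-- consequences of being `L₃(2)` or `A₆` modulo scalars -/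
structure CS (M : Subgroup G3) : Prop where
  big : Fintype.card F = 4 ∨ 11 ≤ Fintype.card F
  ord : ∀ g ∈ M, ∃ n : ℕ, 0 < n ∧ n ≤ 7 ∧ g ^ n ∈ Z3 ∧ (Fintype.card F = 4 → n ≤ 6) ∧ (Fintype.card F ≠ 4 → (n : F) ≠ 0)
  q8 : ((Fintype.card F).Prime ∧ ∀ R ≤ M, Nat.card R = 27 → IsMulCommutative R) ∨
    ∀ i ∈ M, ∀ j ∈ M, j * j = i * i → i ^ 4 = 1 → i * j = i * i * j * i → i * i ∈ Z3

theorem cs_l32 {P M : Subgroup G3} (e : PQ P ≃* ProjectiveSpecialLinearGroup (Fin 3) (ZMod 2)) (h : M ≤ P ⊔ Z3)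
    (h1 : (Fintype.card F).Prime) (h2 : 11 ≤ Fintype.card F) : CS M := by
  obtain ⟨φ, hφ⟩ := exists_hom (e.trans MiR.pslEquiv) h
  haveI := charP_of_card_eq_prime (R := F) (p := Fintype.card F) (hp := ⟨h1⟩) rfl
  have k : ∀ g : M, ∀ n : ℕ, φ g ^ n = 1 → 0 < n → n ≤ 7 → 0 < n ∧ n ≤ 7 ∧ (g : G3) ^ n ∈ Z3 ∧ (Fintype.card F = 4 → n ≤ 6) ∧
      (Fintype.card F ≠ 4 → (n : F) ≠ 0) := fun g n a b c => ⟨b, c, (hφ (g ^ n)).mp (map_pow φ g n ▸ a), by omega, fun _ d => by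
    have := Nat.le_of_dvd b ((CharP.cast_eq_zero_iff F _ n).mp d); omega⟩
  refine ⟨.inr h2, fun g hg => ?_, .inl ⟨h1, fun R l c => ?_⟩⟩
  · rcases MiR.l32_facts (φ ⟨g, hg⟩) with ⟨-, a | a⟩ | ⟨a, -⟩ <;> exact ⟨_, k _ _ a (by decide) (by decide)⟩
  · haveI := Fact.mk Nat.prime_three
    let f := φ.comp (Subgroup.inclusion l)
    haveI : IsCyclic f.range := isCyclic_of_card_dvd_prime (p := 3) (Nat.dvd_gcd
      (c ▸ Subgroup.card_dvd_of_surjective _ f.rangeRestrict_surjective) (MiR.card_S ▸ f.range.card_subgroup_dvd_card))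
    exact ⟨⟨commutative_of_cyclic_center_quotient f.rangeRestrict fun x hx => Subgroup.mem_center_iff.mpr fun y =>
      Subtype.ext (scalars_comm ((hφ _).mp (congrArg Subtype.val hx)) _).symm⟩⟩

theorem cs_a6 {P M : Subgroup G3} (e : PQ P ≃* alternatingGroup (Fin 6)) (h : M ≤ P ⊔ Z3) {p : ℕ} [CharP F p]
    (h1 : Fintype.card F = 4 ∨ 7 ≤ p ∧ 11 ≤ Fintype.card F) : CS M := by
  obtain ⟨φ, hφ⟩ := exists_hom e h
  have k : ∀ g : M, ∀ n : ℕ, φ g ^ n = 1 → 0 < n → n ≤ 6 → 0 < n ∧ n ≤ 7 ∧ (g : G3) ^ n ∈ Z3 ∧ (Fintype.card F = 4 → n ≤ 6) ∧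
      (Fintype.card F ≠ 4 → (n : F) ≠ 0) := fun g n a b c => ⟨b, by omega, (hφ (g ^ n)).mp (map_pow φ g n ▸ a), by omega, fun _ d => by
    have := Nat.le_of_dvd b ((CharP.cast_eq_zero_iff F p n).mp d); omega⟩
  refine ⟨by omega, fun g hg => ?_, .inr fun i hi j hj a b c => (hφ (⟨i, hi⟩ * ⟨i, hi⟩)).mp (Subtype.ext ?_)⟩
  · rcases MiR.alt6_facts (φ ⟨g, hg⟩) with ⟨-, a | a | a⟩ <;> exact ⟨_, k _ _ a (by decide) (by decide)⟩
  · let ψ := (alternatingGroup (Fin 6)).subtype.comp φ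
    exact (map_mul ψ _ _).trans (q8 (y := ψ ⟨j, hj⟩) (by simp only [← map_mul]; exact congrArg ψ (Subtype.ext a))
      (by rw [← map_pow, ← map_one ψ]; exact congrArg ψ (Subtype.ext b)) (by simp only [← map_mul]; exact congrArg ψ (Subtype.ext c)))

theorem not_real {H P : Subgroup G3} (hH : H ≤ SL3) (hS : InLinearResidualClass H) (hP : IsResidualCore H P) :
    ¬ ∀ g ∈ P, trc g⁻¹ = trc g := fun h => by
  have c := Core.of_residual hP hH
  obtain ⟨ε, f, hf, i⟩ := exists_hform_of_trace (σ := RingHom.id F) (fun _ => rfl) c.span fun x hx => (h x hx).symm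
  have l : H ≤ similarityGroup f := fun g hg => hf.mem_similarityGroup_of_normalizes c.span i (hP.normal g hg)
  obtain ⟨Q, hQ, n, -⟩ := hS
  have s : ¬ ∀ v, f v v = 0 := fun a => (by decide : ¬ Even 3) (by simpa using even_card_of_symplectic (hf.symplectic a))
  by_cases h2 : (2 : F) = 0
  · obtain rfl : ε = 1 := hf.eps_id.elim id fun h => by rw [h]; linear_combination -h2
    exact s (hf.alt_of_irr h2 (by simp) c.irr (hP.le.trans l))
  · rcases hf.eps_id with rfl | rfl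
    · exact n ⟨_, hf.quad h2, by
        rintro _ ⟨x, hx, rfl⟩ v; exact commutator_le_isoG (hQ.le.trans l) (hQ.perfect.ge hx) v v⟩
    · exact s (hf.alt_of_two_ne_zero h2)

end Cfsg.Agent.MiM
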