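import Cfsg.Agent.MiM.Hes
import Cfsg.Agent.MiM.Spor
import Cfsg.Agent.S5775
import Cfsg.Agent.MiX.Base

/-! Standard forms, and the properties of each type of maximal subgroup of `SL₃(F)`. -/

set_option autoImplicit false
set_option linter.style.haveILetI false

namespace Cfsg.Agent.MiM

open Cfsg.Geo Matrix Cfsg.Agent.H18 Cfsg.Agent.H18.Mi
open scoped commutatorElement

variable {F : Type*} [Field F]

local notation "M3" => Matrix (Fin 3) (Fin 3) F
local notation "G3" => GL (Fin 3) F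
local notation "SL3" => specialLinear (Fin 3) F
local notation "Z3" => scalars (Fin 3) F

/-- the standard symmetric Gram matrix -/
def B0 : M3 := !![0, 0, 1; 0, -1, 0; 1, 0, 0]

theorem grm_mul {σ : F →+* F} {ε : F} {f : (Fin 3 → F) → (Fin 3 → F) → F} (hf : HForm σ ε f) (P Q : G3) :
    grm f (P * Q) = (Q : M3)ᵀ * grm f P * (Q : M3).map σ := frm_inj (σ := σ) fun u v => by
  rw [← frm_mulVec_mulVec, ← hf.eq_grm, ← hf.eq_grm, Units.val_mul, mulVec_mulVec, mulVec_mulVec]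

theorem quad_eq {Q : (Fin 3 → F) → F} (hQ : IsNondegenerateQuadraticForm Q) (h2 : (2 : F) ≠ 0) :
    quadSimilarityGroup Q = similarityGroup (QuadraticMap.polar Q) :=
  le_antisymm (quadSimilarityGroup_le Q) fun _ ⟨c, h⟩ => ⟨c, fun v => mul_left_cancel₀ h2 (by
    rw [← polar_self_of_quad hQ, h, polar_self_of_quad hQ, mul_left_comm])⟩

variable [Fintype F]

theorem orth_std {f : (Fin 3 → F) → (Fin 3 → F) → F} (hf : HForm (RingHom.id F) 1 f) (h2 : (2 : F) ≠ 0) :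
    ∃ P : G3, ∀ g, g ∈ similarityGroup f ↔ S8 (RingHom.id F) B0 (P⁻¹ * g * P) := by
  obtain ⟨e, e1, e2⟩ := hf.exists_orth_basis h2 hf.nondegOn_top (m := 3) (by simp)
  obtain ⟨P, hP⟩ := exists_P_of_basis (e.map Submodule.topEquiv)
  obtain ⟨a, b, c, ha, hb, hc, d⟩ : ∃ a b c : F, a ≠ 0 ∧ b ≠ 0 ∧ c ≠ 0 ∧ grm f P = !![a, 0, 0; 0, b, 0; 0, 0, c] :=
    ⟨_, _, _, e2 0, e2 1, e2 2, by ext i j; rw [grm_apply, hP, hP]; fin_cases i <;> fin_cases j <;> simp [e1]⟩
  obtain ⟨x, y, t⟩ := H13.exists_mul_sq_add_mul_sq_eq ha hb (-c)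
  have h4 : (4 : F) * a * b * c ≠ 0 := by rw [show (4 : F) = 2 * 2 by norm_num]; simp [*]
  refine ⟨P * GeneralLinearGroup.mkOfDetNeZero !![x, 2 * b * y, -2 * a * b * x; y, -2 * a * x, -2 * a * b * y; 1, 0, 2 * a * b]
    (fun n => mul_ne_zero h2 h4 (mul_left_cancel₀ hc ?_)), sim_std hf h4 ?_⟩
  · simp [det_fin_three] at n; grind
  · rw [grm_mul hf, d]
    ext i j; fin_cases i <;> fin_cases j <;> simp [B0, mul_apply, Fin.sum_univ_three] <;> grind

theorem uni_std {σ : F ≃+* F} {f : (Fin 3 → F) → (Fin 3 → F) → F} (hf : IsUnitaryForm σ f) :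
    ∃ P : G3, ∀ g, g ∈ similarityGroup f ↔ S8 (σ : F →+* F) 1 (P⁻¹ * g * P) :=
  let ⟨P, h⟩ := (hform_of_unitary hf).exists_orthonormal fun e => hf.ne_refl (RingEquiv.ext (RingHom.congr_fun e))
  ⟨P, sim_std (hform_of_unitary hf) one_ne_zero (h.trans (one_smul _ _).symm)⟩

/-- properties of the maximal subgroups of `SL₃(F)` by type -/
def Col (M : Subgroup G3) : Prop :=
  ¬ Irr M ∨
  (5 ≤ Fintype.card F ∧ C2 M ∧ ∀ D : Fin 3 → Submodule F (Fin 3 → F), IsMDecomposition 1 D →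
    Nat.card M = Nat.card ↥(decompositionStabilizer D ⊓ SL3)) ∨
  (∃ K, IsFieldSubalgebra 3 K ∧ M = subalgebraNormalizer K ⊓ SL3) ∨
  (∃ (E : Subfield F) (r : ℕ), r.Prime ∧ Fintype.card F = Nat.card E ^ r ∧ TrC M (frobOf E) id ∧
    ∀ P, Nat.card M = Nat.card ↥(subfieldSubgroup E P ⊓ SL3)) ∨
  ((Fintype.card F).Prime ∧ Fintype.card F % 3 = 1 ∧ C6 M ∧
    ∀ R, IsLinearSymplecticTypeData 3 R → Nat.card M = Nat.card ↥(subgroupNormalizer R ⊓ SL3)) ∨
  (TrC M (RingHom.id F) Inv.inv ∧ ∀ Q, IsNondegenerateQuadraticForm Q → Nat.card M = Nat.card ↥(quadSimilarityGroup Q ⊓ SL3)) ∨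
  (∃ σ : F →+* F, σ ≠ RingHom.id F ∧ (∀ x, σ (σ x) = x) ∧ TrC M σ Inv.inv ∧
    ∀ (τ : F ≃+* F) f, IsUnitaryForm τ f → (τ : F →+* F) = σ → Nat.card M = Nat.card ↥(similarityGroup f ⊓ SL3)) ∨ CS M

theorem col {M : Subgroup G3} (h : IsMaximalIn SL3 M) (hS : InLinearResidualClass M → CS M) : Col M := by
  rcases S5775.result M h with ⟨W, a, b, rfl⟩ | ⟨a, D, b, rfl⟩ | ⟨-, a⟩ | ⟨E, r, P, a, b, rfl⟩ | ⟨p, R, a, b, c, d, rfl⟩ |
    ⟨a, Q, b, rfl⟩ | ⟨σ, f, a, rfl⟩ | a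
  · exact .inl fun i => (i W fun g hg v => ((mem_subspaceStabilizer.mp hg.1) v).mp).elim a b
  · refine .inr (.inl ⟨a, c2 b inf_le_left, fun D' c => ?_⟩)
    obtain ⟨P, e⟩ := mem_dec b
    obtain ⟨P', e'⟩ := mem_dec c
    simp only [cji] at e e'
    exact card_std (S := fun g => IsMon (g : M3)) e e'
  · exact .inr (.inr (.inl a))
  · refine .inr (.inr (.inr (.inl ⟨E, r, a, b, trC_sub E P, fun P' => card_std (P := P) (P' := P')
      (S := fun g => ∃ ζ : F, ζ ≠ 0 ∧ ∀ i j, ζ * (g : M3) i j ∈ E) (fun g => ?_) fun g => ?_⟩))) <;>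
    rw [mem_subfieldSubgroup_iff, cji]
  · obtain ⟨⟨ω, w⟩, e, f⟩ := card_R d
    refine .inr (.inr (.inr (.inr (.inl ⟨b ▸ a, b ▸ c, c6 d.symplecticType d.absIrred e f le_rfl, fun R' d' => ?_⟩))))
    obtain ⟨-, P, e⟩ := hes_std w d.symplecticType d.absIrred
    obtain ⟨-, P', e'⟩ := hes_std w d'.symplecticType d'.absIrred
    exact card_std (S := (· ∈ subgroupNormalizer (R0 w))) (norm_std e) (norm_std e')
  · have h2 := two_ne_zero_iff_odd.mpr a
    refine .inr (.inr (.inr (.inr (.inr (.inl ⟨quad_eq b h2 ▸ trC_sim (hform_of_quad b), fun Q' b' => ?_⟩)))))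
    obtain ⟨P, e⟩ := orth_std (hform_of_quad b) h2
    obtain ⟨P', e'⟩ := orth_std (hform_of_quad b') h2
    rw [quad_eq b h2, quad_eq b' h2, card_std e e']
  · refine .inr (.inr (.inr (.inr (.inr (.inr (.inl ⟨σ, fun e => a.ne_refl (RingEquiv.ext (RingHom.congr_fun e)), a.involutive,
      trC_sim (hform_of_unitary a), fun τ f' a' t => ?_⟩))))))
    obtain ⟨P, e⟩ := uni_std a
    obtain ⟨P', e'⟩ := uni_std a'
    exact card_std e (t ▸ e')
  · exact .inr (.inr (.inr (.inr (.inr (.inr (.inr (hS a)))))))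

theorem fix_of_prime (h : (Fintype.card F).Prime) (τ : F →+* F) (x : F) : τ x = x := by
  obtain ⟨y, rfl⟩ := (ZMod.ringEquivOfPrime F h rfl).surjective x
  haveI := NeZero.mk h.ne_zero
  obtain ⟨n, rfl⟩ := ZMod.natCast_zmod_surjective y
  simp

theorem frob_ne {E : Subfield F} {r : ℕ} (a : r.Prime) (b : Fintype.card F = Nat.card E ^ r) : ¬ ∀ x, frobOf E x = x := fun h =>
  ne_top_of_card_eq_pow a b (eq_top_iff.mpr fun x _ => (frobOf_eq_iff E x).mp (h x))

theorem subfield_eq {E E' : Subfield F} {r r' : ℕ} (a : r.Prime) (b : Fintype.card F = Nat.card E ^ r) (a' : r'.Prime)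
    (b' : Fintype.card F = Nat.card E' ^ r') (h : E ≤ E') : E = E' := by
  letI := (Subfield.inclusion h).toAlgebra
  have c := Module.natCard_eq_pow_finrank (K := E) (V := E')
  rw [c, ← pow_mul, b] at b'
  have d := Nat.pow_right_injective Finite.one_lt_card b'
  rw [(a.eq_one_or_self_of_dvd _ ⟨_, d⟩).resolve_right fun e => a'.ne_one (by
    rw [e] at d; exact (Nat.mul_eq_left a.ne_zero).mp d.symm), pow_one] at c
  exact Subfield.ext fun x => by rw [mem_subfield_iff_pow, mem_subfield_iff_pow, c]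

omit [Fintype F] in
theorem tv_pow {g : G3} (h : Tv g) {n : ℕ} (a : g ^ n ∈ Z3) : (n : F) = 0 := by
  have b : ∀ n : ℕ, (g : M3) ^ n = 1 + (n : F) • ((g : M3) - 1) := fun n => by
    induction n with
    | zero => simp
    | succ n ih =>
      rw [pow_succ, ih, add_mul, smul_mul_assoc, show ((g : M3) - 1) * g = (g - 1) * (g - 1) + (g - 1) by noncomm_ring, h.2]
      simp [add_smul]; abel
  obtain ⟨c, e⟩ := (mem_scalars_iff _).mp a
  rw [Units.val_pow_eq_pow_val, b, ← eq_sub_iff_add_eq', show (c : F) • (1 : M3) - 1 = ((c : F) - 1) • 1 by simp [sub_smul]] at e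
  have f := congrArg (fun x => x * x) e
  simp only [smul_mul_smul_comm, h.2, smul_zero, mul_one] at f
  rw [eq_comm, smul_eq_zero, mul_self_eq_zero, or_iff_left one_ne_zero] at f
  rw [f, zero_smul, smul_eq_zero] at e
  exact e.resolve_right fun e => h.1 (Units.ext (sub_eq_zero.mp e))

theorem cnt {K : Subalgebra F M3} (hK : IsFieldSubalgebra 3 K) {k : G3} (h1 : (k : M3) ∈ K) (h2 : k ∈ SL3) (S : Finset (F × F))
    (h : ∀ i : ℕ, (trc (k ^ i), trc (k ^ i)⁻¹) ∈ S) : orderOf k ≤ 3 * S.card := by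
  classical
  letI := (isField hK).toField
  rw [← Finset.card_range (orderOf k)]
  refine Finset.card_le_mul_card_image_of_maps_to (f := fun i => (trc (k ^ i), trc (k ^ i)⁻¹)) (fun i _ => h i) 3 fun a _ => ?_
  let p : Cubic K := ⟨1, -algebraMap F K a.1, algebraMap F K a.2, -1⟩
  refine (Finset.card_le_card_of_injOn (t := p.roots.toFinset) (fun i => ⟨(k ^ i : G3), pow_mem h1 i⟩) (fun i hi => ?_)
    fun i hi j hj e => pow_injOn_Iio_orderOf (by simpa using (Finset.mem_filter.mp hi).1) (by simpa using (Finset.mem_filter.mp hj).1)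
      (Units.ext (congrArg Subtype.val e))).trans p.card_roots_le
  obtain ⟨-, rfl⟩ := Finset.mem_filter.mp hi
  have s := MiX.ch (pow_mem h2 i)
  refine Multiset.mem_toFinset.mpr ((Cubic.mem_roots_iff (Cubic.ne_zero_of_a_ne_zero one_ne_zero) _).mpr (Subtype.ext ?_))
  simp [p, Algebra.algebraMap_eq_smul_one, pow_three', sq, -Units.val_pow_eq_pow_val] at s ⊢
  rw [s]; abel

end Cfsg.Agent.MiM
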