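import Cfsg.Agent.MiM.Col

/-! Trace conditions for subfield groups and similarity groups in `SL₃(F)`; explicit elements. -/

set_option autoImplicit false
set_option linter.style.haveILetI false

namespace Cfsg.Agent.MiM

open Cfsg.Geo Matrix Cfsg.Agent.H18 Cfsg.Agent.H18.Mi
open scoped commutatorElement

variable {F : Type*} [Field F]

local notation "M3" => Matrix (Fin 3) (Fin 3) F
local notation "G3" => GL (Fin 3) F
local notation "SL3" => specialLinear (Fin 3) F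

theorem cji (P g : G3) : cj P⁻¹ (g : M3) = ((P⁻¹ * g * P : G3) : M3) := by rw [cj_coe, inv_inv]

theorem card_std {X X' : Subgroup G3} {S : G3 → Prop} {P P' : G3} (h : ∀ g, g ∈ X ↔ S (P⁻¹ * g * P))
    (h' : ∀ g, g ∈ X' ↔ S (P'⁻¹ * g * P')) : Nat.card ↥(X ⊓ SL3) = Nat.card ↥(X' ⊓ SL3) :=
  card_conj (P * P'⁻¹) fun g => by rw [h, h']; congr! 1; group

theorem max_std [Finite F] {X : Subgroup G3} {S : G3 → Prop} {P : G3} (h : ∀ g, g ∈ X ↔ S (P⁻¹ * g * P)) (n : ¬ SL3 ≤ X)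
    (H : ∀ M, IsMaximalIn SL3 M → (∀ g ∈ SL3, S g → g ∈ M) → Nat.card M ≤ Nat.card ↥(X ⊓ SL3)) : IsMaximalIn SL3 (X ⊓ SL3) := by
  let Y := X.comap (MulAut.conj P).toMonoidHom
  have a : ∀ g, g ∈ Y ↔ S g := fun g => (h _).trans (by simp [mul_assoc])
  have b : ∀ g, g ∈ X ↔ P⁻¹ * g * P ∈ Y := fun g => (h g).trans (a _).symm
  exact max_conj P b (max_of (lt_of_le_of_ne inf_le_right fun e => n fun g hg => (b g).mpr (e.ge (cj_SL.mpr hg)).1)
    fun M hM l => card_conj P b ▸ H M hM fun g c d => l ⟨(a g).mpr d, c⟩)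

theorem comm_eq {A : Type*} [Group A] {g h k : A} (e : g * h = k * h * g) : ⁅g, h⁆ = k := by
  rw [commutatorElement_def, e]; group

theorem comm_mem {A : Type*} [Group A] {Y : Subgroup A} {g h k : A} (a : ⁅g, h⁆ ∈ Y) (e : g * h = k * h * g) : k ∈ Y := comm_eq e ▸ a

theorem comm_cen {A : Type*} [Group A] {z w : A} (a : ∀ y, Commute z y) (b : ∀ y, Commute w y) (x y : A) :
    ⁅z * x, w * y⁆ = ⁅x, y⁆ := comm_eq (by
  calc _ = z * (x * w) * y := by group
    _ = ⁅x, y⁆ * (y * x) * (z * w) := by rw [← (b x).eq, commutatorElement_def, ← ((a _).mul_left (b _)).eq]; group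
    _ = ⁅x, y⁆ * (y * (x * z) * w) := by group
    _ = _ := by rw [← (b _).eq, ← (a x).eq]; group)

/-- on a subgroup containing commutators and cubes the trace satisfies an identity -/
def TrC (M : Subgroup G3) (τ : F →+* F) (ι : G3 → G3) : Prop :=
  ∃ Y : Subgroup G3, (∀ g ∈ M, ∀ h ∈ M, ⁅g, h⁆ ∈ Y) ∧ (∀ g ∈ M, g ^ 3 ∈ Y) ∧ ∀ y ∈ Y, τ (trc y) = trc (ι y)

theorem trC_sub [Finite F] (F₀ : Subfield F) (P : G3) : TrC (subfieldSubgroup F₀ P ⊓ SL3) (frobOf F₀) id := by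
  let φ : G3 →* G3 := (GeneralLinearGroup.map (frobOf F₀)).comp (MulAut.conj P⁻¹).toMonoidHom
  let ψ : G3 →* G3 := (MulAut.conj P⁻¹).toMonoidHom
  have a : ∀ g ∈ subfieldSubgroup F₀ P ⊓ SL3, ∃ c : Fˣ, c ^ 3 = 1 ∧ φ g = sc _ c * ψ g := fun g hg => by
    obtain ⟨ζ, h1, h2⟩ := mem_subfieldSubgroup_iff.mp hg.1
    have e : φ g = sc _ (Units.mk0 (ζ / frobOf F₀ ζ) (by simpa using h1)) * ψ g := Units.ext (by
      ext i j
      have := (frobOf_eq_iff F₀ _).mpr (h2 i j)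
      rw [map_mul] at this
      rw [sc_mul_coe, Matrix.smul_apply, smul_eq_mul, Units.val_mk0, div_mul_eq_mul_div, eq_div_iff (by simpa using h1), mul_comm]
      exact this)
    refine ⟨_, Units.ext ?_, e⟩
    have d : (ψ g : M3).det = 1 := (det_cj P⁻¹ _).trans (mem_specialLinear.mp hg.2)
    have := congrArg (fun x : G3 => (x : M3).det) e
    simp only [sc_mul_coe, det_smul, d, mul_one, Fintype.card_fin] at this
    exact this.symm.trans (((frobOf F₀).map_det (ψ g : M3)).symm.trans (by rw [d, map_one]; rfl))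
  refine ⟨φ.eqLocus ψ, fun g hg h hh => ?_, fun g hg => ?_, fun y hy => ?_⟩
  · obtain ⟨c, -, e⟩ := a g hg
    obtain ⟨d, -, f⟩ := a h hh
    change φ _ = ψ _
    rw [map_commutatorElement, map_commutatorElement, e, f]
    exact comm_cen (sc_commute c) (sc_commute d) _ _
  · obtain ⟨c, e, f⟩ := a g hg
    change φ _ = ψ _
    rw [map_pow, map_pow, f, (sc_commute c _).mul_pow, ← map_pow, e, map_one, one_mul]
  · have : trc (ψ y) = trc y := trace_cj P⁻¹ _
    rw [id, ← this]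
    conv_rhs => rw [← show φ y = ψ y from hy]
    exact AddMonoidHom.map_trace (frobOf F₀) (ψ y : M3)

/-- similarities of the form with Gram matrix `G` -/
def S8 (σ : F →+* F) (G : M3) (g : G3) : Prop := ∃ c : Fˣ, (g : M3)ᵀ * G * (g : M3).map σ = (c : F) • G

theorem mult_iff {σ : F →+* F} {ε : F} {f : (Fin 3 → F) → (Fin 3 → F) → F} (hf : HForm σ ε f) {P : G3} {G : M3} {d : F}
    (hd : d ≠ 0) (hG : grm f P = d • G) (g : G3) (c : F) : Mult f g c ↔
      ((P⁻¹ * g * P : G3) : M3)ᵀ * G * ((P⁻¹ * g * P : G3) : M3).map σ = c • G := by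
  have a : ∀ u v, f (g *ᵥ (P : M3) *ᵥ u) (g *ᵥ (P : M3) *ᵥ v) = d *
      frm σ (((P⁻¹ * g * P : G3) : M3)ᵀ * G * ((P⁻¹ * g * P : G3) : M3).map σ) u v := fun u v => by
    rw [← frm_mulVec_mulVec, ← frm_smul, ← hG, ← hf.eq_grm]
    simp only [mulVec_mulVec, ← Units.val_mul, ← mul_assoc, mul_inv_cancel, one_mul]
  refine ⟨fun h => frm_inj (σ := σ) fun u v => mul_left_cancel₀ hd ?_, fun h u v => ?_⟩
  · rw [← a, h, hf.eq_grm, hG, frm_smul, frm_smul, mul_left_comm]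
  · rw [← mulVec_inv_mulVec P u, ← mulVec_inv_mulVec P v, a, h, hf.eq_grm, hG, frm_smul, frm_smul, mul_left_comm]

theorem sim_std {σ : F →+* F} {ε : F} {f : (Fin 3 → F) → (Fin 3 → F) → F} (hf : HForm σ ε f) {P : G3} {G : M3} {d : F}
    (hd : d ≠ 0) (hG : grm f P = d • G) (g : G3) : g ∈ similarityGroup f ↔ S8 σ G (P⁻¹ * g * P) :=
  exists_congr fun c => mult_iff hf hd hG g c

theorem trC_sim {σ : F →+* F} {ε : F} {f : (Fin 3 → F) → (Fin 3 → F) → F} (hf : HForm σ ε f) :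
    TrC (similarityGroup f ⊓ SL3) σ Inv.inv := by
  refine ⟨isoG f, fun g a h b => commutator_mem_isoG a.1 b.1, fun g ⟨⟨c, a⟩, b⟩ => mult_one_iff.mp ?_, fun y => hf.trace_isoG⟩
  have := congrArg det ((mult_iff hf one_ne_zero (P := 1) (one_smul _ _).symm g c).mp a)
  rw [inv_one, one_mul, mul_one, det_mul, det_mul, det_transpose, ← RingHom.mapMatrix_apply, ← σ.map_det, mem_specialLinear.mp b,
    map_one, one_mul, mul_one, det_smul, Fintype.card_fin, eq_comm, mul_eq_right₀ (gram_frm σ (grm f 1) ▸ (hf.hform_grm 1).isUnit_det.ne_zero)] at this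
  exact this ▸ Mult.pow a 3

/-- diagonal matrices -/
def dg (a b c : F) (h : a * b * c = 1) : G3 := sl !![a, 0, 0; 0, b, 0; 0, 0, c] (by simp [det_fin_three, h])
/-- the cyclic permutation matrix -/
def cy : G3 := sl !![0, 0, 1; 1, 0, 0; 0, 1, 0] (by simp [det_fin_three])
/-- minus a transposition -/
def wv : G3 := sl !![-1, 0, 0; 0, 0, -1; 0, -1, 0] (by simp [det_fin_three])

theorem inv_sl {A B : M3} (a : A.det = 1) (b : B.det = 1) (h : A * B = 1) : (sl A a)⁻¹ = sl B b :=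
  inv_eq_of_mul_eq_one_right (Units.ext h)

theorem alg {b c : F} (hb : b ≠ 0) (hc : c ≠ 0) (h1 : 1 + c + c⁻¹ = 1 + b + b⁻¹) (h2 : c⁻¹ ^ 2 + c + c = b⁻¹ ^ 2 + b + b) : c = b := by
  by_contra n
  have a : c * b = 1 := mul_left_cancel₀ (sub_ne_zero.mpr n) (by field_simp at h1; linear_combination h1)
  obtain rfl := eq_inv_of_mul_eq_one_left a
  have : (b - 1) ^ 3 * (b + 1) = 0 := by field_simp at h2; linear_combination h2
  rcases mul_eq_zero.mp this with e | e
  · rw [sub_eq_zero.mp (pow_eq_zero_iff three_ne_zero |>.mp e)] at n; simp at n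
  · rw [eq_neg_of_add_eq_zero_left e] at n; simp at n

variable {M : Subgroup (GL (Fin 3) F)} {τ : F →+* F}

theorem TrC.dgm {ι : G3 → G3} (h : TrC M τ ι) (h1 : cy ∈ M) (h2 : wv ∈ M) {a : F} (ha : a ≠ 0)
    (h3 : dg a⁻¹ a 1 (by simp [ha]) ∈ M) (h4 : dg a⁻¹ 1 a (by simp [ha]) ∈ M) :
    1 + τ a + (τ a)⁻¹ = trc (ι (dg 1 a a⁻¹ (by simp [ha]))) ∧
      (τ a)⁻¹ ^ 2 + τ a + τ a = trc (ι (dg (a⁻¹ ^ 2) a a (by field_simp))) := by
  obtain ⟨Y, b, -, c⟩ := h
  rw [← c, ← c]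
  · simp [trc, dg, trace_fin_three]
  · exact comm_mem (b _ h4 _ h1) (Units.ext (by simp [dg, cy, ha, sq]))
  · exact comm_mem (b _ h3 _ h2) (Units.ext (by simp [dg, wv, ha]))

theorem TrC.dg_id (h : TrC M τ id) (h1 : cy ∈ M) (h2 : wv ∈ M) {a : F} (ha : a ≠ 0)
    (h3 : dg a⁻¹ a 1 (by simp [ha]) ∈ M) (h4 : dg a⁻¹ 1 a (by simp [ha]) ∈ M) : τ a = a := by
  obtain ⟨b, c⟩ := h.dgm h1 h2 ha h3 h4
  exact alg ha (by simpa) (by simpa [trc, dg, trace_fin_three] using b) (by simpa [trc, dg, trace_fin_three] using c)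

theorem TrC.dg_inv (h : TrC M τ Inv.inv) (h1 : cy ∈ M) (h2 : wv ∈ M) {a : F} (ha : a ≠ 0)
    (h3 : dg a⁻¹ a 1 (by simp [ha]) ∈ M) (h4 : dg a⁻¹ 1 a (by simp [ha]) ∈ M) : τ a = a⁻¹ := by
  obtain ⟨b, c⟩ := h.dgm h1 h2 ha h3 h4
  rw [dg, inv_sl _ (B := !![1, 0, 0; 0, a⁻¹, 0; 0, 0, a]) (by simp [det_fin_three, ha]) (by simp [ha, one_fin_three])] at b
  rw [dg, inv_sl _ (B := !![a ^ 2, 0, 0; 0, a⁻¹, 0; 0, 0, a⁻¹]) (by simp [det_fin_three, ha, sq]) (by simp [ha, one_fin_three])] at c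
  exact alg (inv_ne_zero ha) (by simpa) (by simpa [trc, trace_fin_three] using b) (by simpa [trc, trace_fin_three] using c)

theorem le_four [Fintype F] (h : ∀ a : F, a ≠ 0 → τ a = a⁻¹) : Fintype.card F ≤ 4 := by
  obtain ⟨g, e⟩ := IsCyclic.exists_ofOrder_eq_natCard (α := Fˣ)
  rw [Nat.card_units, Nat.card_eq_fintype_card] at e
  by_cases n : (g : F) + 1 = 0
  · have := orderOf_le_of_pow_eq_one (x := g) two_pos (Units.ext (by simp [eq_neg_of_add_eq_zero_left n]))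
    omega
  · have a := h _ n
    rw [map_add, map_one, h _ g.ne_zero] at a
    have := orderOf_le_of_pow_eq_one (x := g) three_pos (Units.ext (by
      have := g.ne_zero
      field_simp at a
      push_cast
      linear_combination ((g : F) - 1) * a))
    omega

theorem eq_top_of_norm {σ : F →+* F} (h1 : σ ≠ RingHom.id F) (h2 : ∀ x, σ (σ x) = x) {E : Subfield F}
    (h : ∀ a : F, a * σ a = 1 → a ∈ E) (x : F) : x ∈ E := by
  have m : ∀ a : F, a ≠ 0 → σ a / a ∈ E := fun a n => h _ (by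
    have : σ a ≠ 0 := by simpa
    rw [map_div₀, h2]; field_simp)
  have k : ∀ a : F, σ a ≠ a → a ∈ E := fun a n => by
    have a0 : a ≠ 0 := fun e => n (by simp [e])
    have a1 : a + 1 ≠ 0 := fun e => n (by simp [eq_neg_of_add_eq_zero_left e])
    have := E.div_mem (E.sub_mem (m _ a1) E.one_mem) (E.sub_mem (m _ a0) (m _ a1))
    have n' := sub_ne_zero.mpr n
    rwa [map_add, map_one, show ((σ a + 1) / (a + 1) - 1) = (σ a - a) / (a + 1) by field_simp; ring,
      show σ a / a - (σ a + 1) / (a + 1) = (σ a - a) / (a * (a + 1)) by field_simp; ring,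
      show (σ a - a) / (a + 1) / ((σ a - a) / (a * (a + 1))) = a by field_simp] at this
  obtain ⟨y, n⟩ : ∃ y, σ y ≠ y := by_contra fun n => h1 (RingHom.ext (by simpa using n))
  by_cases e : σ x = x
  · simpa using E.sub_mem (k (x + y) (by simpa [e] using n)) (k y n)
  · exact k x e

theorem irr_of (h1 : (single 0 1 1 : M3) ∈ spanAlg F M) (h2 : (single 1 2 1 : M3) ∈ spanAlg F M)
    (h3 : (single 2 0 1 : M3) ∈ spanAlg F M) : Irr M := irr_of_spanAlg_eq_top (eq_top_iff.mpr fun X _ => by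
  have a : ∀ i j k, (single i j 1 : M3) ∈ spanAlg F M → (single j k 1 : M3) ∈ spanAlg F M → (single i k 1 : M3) ∈ spanAlg F M :=
    fun i j k b c => by simpa using mul_mem b c
  have b := a _ _ _ h1 h2
  have c := a _ _ _ h2 h3
  have d := a _ _ _ h3 h1
  rw [matrix_eq_sum_smul_single X]
  refine sum_mem fun i _ => sum_mem fun j _ => Subalgebra.smul_mem _ ?_ _
  fin_cases i <;> fin_cases j
  exacts [a _ _ _ b h3, h1, b, c, a _ _ _ c h1, h2, h3, d, a _ _ _ d h2])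

theorem irr_dg {a : F} (ha : a ≠ 0) (n : a ≠ 1) (h1 : cy ∈ M) (h2 : dg a⁻¹ a 1 (by simp [ha]) ∈ M) : Irr M := by
  have c := coe_mem_spanAlg (R := F) h1
  have d := sub_mem (coe_mem_spanAlg (R := F) h2) (one_mem _)
  have e : (single 1 1 1 : M3) ∈ spanAlg F M := by
    convert Subalgebra.smul_mem _ (mul_mem d (mul_mem (mul_mem c d) (mul_mem c c))) ((a - 1) * (a⁻¹ - 1))⁻¹
    have := sub_ne_zero.mpr n
    have : a⁻¹ - 1 ≠ 0 := sub_ne_zero.mpr (by simpa)
    ext i j; fin_cases i <;> fin_cases j <;> simp [dg, cy, one_fin_three]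
    field_simp
  refine irr_of ?_ ?_ ?_
  · convert mul_mem (mul_mem c c) e
    ext i j; fin_cases i <;> fin_cases j <;> simp [cy, mul_apply, Fin.sum_univ_three, vecMul, dotProduct]
  · convert mul_mem e (mul_mem c c)
    ext i j; fin_cases i <;> fin_cases j <;> simp [cy, mul_apply, Fin.sum_univ_three, vecMul, dotProduct]
  · convert mul_mem (mul_mem c e) c
    ext i j; fin_cases i <;> fin_cases j <;> simp [cy, mul_apply, Fin.sum_univ_three, vecMul, dotProduct]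

theorem wv_not [Fintype F] {K : Subalgebra F M3} (hK : IsFieldSubalgebra 3 K) : wv ∉ subalgebraNormalizer K := fun h => by
  simpa [wv] using congrArg (fun g : G3 => (g : M3) 1 1)
    (no_inv hK h (Units.ext (by simp [wv, one_fin_three])) (by simp [wv, one_fin_three, det_fin_three]))

end Cfsg.Agent.MiM
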